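/- Tower O84: twisted Frobenius maps of a Chevalley group in characteristic two. -/
import Cfsg.Agent.H67.RootSL
import Cfsg.Agent.H63.AdMat

set_option autoImplicit false
set_option linter.unusedSectionVars false

open Cfsg.Lie H63 H64 H65 H67

namespace H46.O84

variable {D : ChevalleyDatum} [RS D] [Tab D] [Comm D] {k : Type*} [Field k]

/-- `m` permutes the root elements as `v` does the roots. -/
def Per (m : ↥(D.group k)) (v : Equiv.Perm (Rt D)) : Prop :=
  ∀ (r : Rt D) (t : k), m * xG D k r t * m⁻¹ = xG D k (v r) t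

theorem adG : Ad D (xG D k) := ad_xG H64.matOK

theorem conj_ext {m m' : ↥(D.group k)}
    (h : ∀ (r : Rt D) (t : k), m * xG D k r t * m⁻¹ = m' * xG D k r t * m'⁻¹) : m = m' := by
  have key : ∀ r : Rt D, m'⁻¹ * m * xG D k r 1 = xG D k r 1 * (m'⁻¹ * m) := fun r => by
    calc _ = m'⁻¹ * (m * xG D k r 1 * m⁻¹) * m := by group
      _ = _ := by rw [h]; group
  have := (adG (D := D) (k := k)).eq_one_of_comm (g := m'⁻¹ * m)
    fun i => ⟨key (simpleR i), key (negR (simpleR i))⟩
  exact (inv_mul_eq_one.1 this).symm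

theorem Per.unique {m m' : ↥(D.group k)} {v : Equiv.Perm (Rt D)} (h : Per m v) (h' : Per m' v) :
    m = m' := conj_ext fun r t => (h r t).trans (h' r t).symm

theorem Per.mul {m m' : ↥(D.group k)} {v v' : Equiv.Perm (Rt D)} (h : Per m v) (h' : Per m' v') :
    Per (m * m') (v * v') := fun r t => by
  rw [Equiv.Perm.mul_apply, ← h, ← h']; group

theorem Per.one : Per (1 : ↥(D.group k)) 1 := fun r t => by simp

theorem Per.inv {m : ↥(D.group k)} {v : Equiv.Perm (Rt D)} (h : Per m v) : Per m⁻¹ v⁻¹ :=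
  fun r t => by
    have := h (v⁻¹ r) t
    rw [← Equiv.Perm.mul_apply, mul_inv_cancel, Equiv.Perm.one_apply] at this
    rw [← this]; group

theorem Per.conj_tor {m : ↥(D.group k)} {v : Equiv.Perm (Rt D)} (h : Per m v)
    {c c' : Fin D.rank → kˣ} (e : ∀ r, chi D c' (v r) = chi D c r) :
    m * torG D k c * m⁻¹ = torG D k c' := by
  refine conj_ext fun r t => ?_
  obtain ⟨r, rfl⟩ := v.surjective r
  rw [torOK_xG.conj stBG.toStN, e, ← h, ← h, ← torOK_xG.conj stBG.toStN]
  group

variable [CharP k 2]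

theorem per_of_sgn {m : ↥(D.group k)} {v : Equiv.Perm (Rt D)} (h : Sgn D (xG D k) m v) :
    Per m v := fun r t => by
  obtain ⟨η, h1, h2⟩ := h r
  have : η = 1 := by
    rcases mul_self_eq_one_iff.1 h1 with e | e
    · exact e
    · rw [e, CharTwo.neg_eq]
  rw [(h2 t).1, this, one_mul]

theorem per_nL (L : List ℕ) : Per (nL D (xG D k) L) (wW D L).1 := by
  refine per_of_sgn ?_
  induction L with
  | nil => exact Sgn.one
  | cons i L ih =>
    rw [nL_cons, wW_cons, sN]
    split_ifs with hi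
    · exact (stBG.toStN.sgn_n ⟨i, hi⟩).mul ih
    · simpa using ih

theorem per_nn (a : Rt D) : Per (nn D (xG D k) a 1) (reflW a).1 := by
  obtain ⟨w, hw, hm⟩ := (stBG (D := D) (k := k)).toStN.sgn_nn_one a
  intro r t
  rw [per_of_sgn hm, hw, reflW_apply]

theorem nL_congr {L L' : List ℕ} (h : wW D L = wW D L') : nL D (xG D k) L = nL D (xG D k) L' :=
  (per_nL L).unique (h ▸ per_nL L')

variable (D k) in
/-- The twisted Frobenius map `g ↦ n F(g) n⁻¹` of a word. -/
noncomputable def sig (L : List ℕ) : ↥(D.group k) →* ↥(D.group k) :=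
  (MulAut.conj (nL D (xG D k) L)).toMonoidHom.comp (mapG D (frobenius k 2))

theorem sig_apply (L : List ℕ) (g : ↥(D.group k)) :
    sig D k L g = nL D (xG D k) L * mapG D (frobenius k 2) g * (nL D (xG D k) L)⁻¹ := rfl

variable (D k) in
/-- The fixed points of the twisted Frobenius map. -/
noncomputable def Gam (L : List ℕ) : Subgroup ↥(D.group k) :=
  (sig D k L).eqLocus (MonoidHom.id _)

theorem mem_Gam {L : List ℕ} {g : ↥(D.group k)} : g ∈ Gam D k L ↔ sig D k L g = g := Iff.rfl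

theorem sig_x (L : List ℕ) (r : Rt D) (t : k) :
    sig D k L (xG D k r t) = xG D k ((wW D L).1 r) (t ^ 2) := by
  rw [sig_apply, mapG_xG, per_nL, frobenius_def]

theorem sig_tor (L : List ℕ) (c : Fin D.rank → kˣ) :
    sig D k L (torG D k c) = torG D k (wT D L (c ^ 2)) := by
  rw [sig_apply, mapG_torG, torOK_xG.nL_conj stBG.toStN, frT_eq_pow (frobenius_def 2)]

theorem sig_injective (L : List ℕ) : Function.Injective (sig D k L) :=
  (MulAut.conj (nL D (xG D k) L)).injective.comp (mapG_injective _)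

variable [IsAlgClosed k]

theorem sig_ext {L : List ℕ} {m : ↥(D.group k)} {f : Rt D → Rt D} {b : Rt D → kˣ}
    (h : ∀ (r : Rt D) (t : k), m * xG D k r t * m⁻¹ = xG D k (f r) (b r * t))
    (hf : ∀ r, f ((wW D L).1 r) = (wW D L).1 (f r)) (hb : ∀ r, b ((wW D L).1 r) = b r ^ 2) :
    m ∈ Gam D k L := by
  refine conj_ext fun r t => ?_
  obtain ⟨r, rfl⟩ := (wW D L).1.surjective r
  obtain ⟨t, rfl⟩ := IsAlgClosed.exists_pow_nat_eq t two_pos
  rw [MonoidHom.id_apply, h, hf, hb, ← sig_x, ← map_inv, ← map_mul, ← map_mul, h, sig_x, mul_pow, Units.val_pow_eq_pow_val]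

theorem Per.mem_Gam {L : List ℕ} {m : ↥(D.group k)} {v : Equiv.Perm (Rt D)} (h : Per m v)
    (hv : ∀ r, v ((wW D L).1 r) = (wW D L).1 (v r)) : m ∈ Gam D k L :=
  sig_ext (b := fun _ => 1) (fun r t => by rw [h, Units.val_one, one_mul]) hv (by simp)

theorem tor_mem_Gam_iff {L : List ℕ} {c : Fin D.rank → kˣ} :
    torG D k c ∈ Gam D k L ↔ ∀ r, chi D c ((wW D L).1 r) = chi D c r ^ 2 := by
  refine ⟨fun h r => ?_, fun h => sig_ext (f := id) (torOK_xG.conj stBG.toStN c) (fun _ => rfl) h⟩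
  have h1 := congrArg (sig D k L) (torOK_xG.conj stBG.toStN c r 1)
  rw [map_mul, map_mul, map_inv, O84.mem_Gam.1 h, sig_x, sig_x, torOK_xG.conj stBG.toStN] at h1
  have := stBG.x_injective _ h1
  exact Units.ext (by simpa using this)

end H46.O84
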