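import Cfsg.Agent.H56.CkSpec

/-! CKS (S2193), slot CKL-Fr: a polarity without absolute points. -/

set_option autoImplicit false
set_option linter.unusedSectionVars false

open Module MulAction H54 H26.ML H56.CK

namespace H46.CKFr

theorem fix {Γ Ω : Type*} [Group Γ] [MulAction Γ Ω] [Finite Ω] (p : ℕ) [Fact p.Prime] {g : Γ}
    (h : g ^ p = 1) (hd : ¬ p ∣ Nat.card Ω) : ∃ w : Ω, g • w = w := by
  classical
  let _ := Fintype.ofFinite Ω
  rw [Nat.card_eq_fintype_card] at hd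
  exact Equiv.Perm.exists_fixed_point_of_prime (n := 1) hd (σ := toPermHom Γ Ω g)
    (by rw [pow_one, ← map_pow, h, map_one])

variable {F V Ω : Type} [Field F] [Fintype F] [AddCommGroup V] [Module F V]
  [FiniteDimensional F V] [MulAction (SLg F V) Ω] [Finite Ω]

/-- `φ` belongs to `x`. -/
def Rf (w : Ω) (x : V) (φ : Dual F V) : Prop :=
  φ x = 2 ∧ ∃ g : SLg F V, (∀ v, g.1 v = -v + φ v • x) ∧ g • w = w

theorem ex_rf (h3 : finrank F V = 3) (hV : VT (SLg F V) Ω) (ho : Odd (Nat.card Ω)) (w : Ω) {x : V}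
    (hx : x ≠ 0) : ∃ φ : Dual F V, Rf w x φ := by
  obtain ⟨θ, hθ⟩ : ∃ θ : Dual F V, θ x = 2 := by
    obtain ⟨f, hf⟩ := Module.Projective.exists_dual_eq_one F hx
    exact ⟨(2 : F) • f, by simp [hf]⟩
  obtain ⟨j, h1⟩ : ∃ j : V ≃ₗ[F] V, ∀ v, j v = -v + θ v • x :=
    ⟨LinearEquiv.neg F * reflection hθ, fun v => by simp [reflection_apply, add_comm, sub_eq_add_neg]⟩
  have h2 : j ∈ SLg F V := by
    have e : (j : V →ₗ[F] V) = (-1 : F) • (reflection hθ : V →ₗ[F] V) :=
      LinearMap.ext fun v => by simp [h1, reflection_apply, add_comm, sub_eq_add_neg]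
    rw [mem_SLg, e, LinearMap.det_smul, h3, H62.det_of_tv (φ := -θ) (u := x) fun v => by
      simp [reflection_apply, sub_eq_add_neg]]
    simp [hθ]
    norm_num
  obtain ⟨w', hw'⟩ := fix (Ω := Ω) 2 (g := (⟨_, h2⟩ : SLg F V)) (Subtype.ext (by
    ext v
    change j (j v) = v
    rw [h1, h1, map_add, map_neg, map_smul, hθ, smul_eq_mul]
    module)) (by rwa [← even_iff_two_dvd, Nat.not_even_iff_odd])
  obtain ⟨g, g1, g2⟩ := hV x w' w
  have g3 : g.1.symm x = x := by rw [LinearEquiv.symm_apply_eq, g1]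
  refine ⟨θ ∘ₗ g.1.symm.toLinearMap, by simp [g3, hθ], g * ⟨_, h2⟩ * g⁻¹, fun v => ?_, ?_⟩
  · change g.1 (j (g.1.symm v)) = _
    rw [h1, map_add, map_neg, map_smul, g1]
    simp
  · rw [mul_smul, mul_smul, inv_smul_eq_iff.2 g2.symm, hw', g2]

theorem rf_eq (hN : NoTv (SLg F V) Ω) {w : Ω} {x : V} (hx : x ≠ 0) {φ ψ : Dual F V}
    (h : Rf w x φ) (h' : Rf w x ψ) : φ = ψ := by
  obtain ⟨a, g, b, c⟩ := h
  obtain ⟨a', g', b', c'⟩ := h'
  have h1 : ∀ v, (g * g').1 v = v + (ψ - φ) v • x := fun v => by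
    change g.1 (g'.1 v) = _
    rw [b, b', map_add, map_neg, map_smul, a, smul_eq_mul, LinearMap.sub_apply]
    module
  have h2 := hN (g * g') (ψ - φ) x (by simp [a, a']) h1 w (by rw [mul_smul, c', c])
  ext v
  have h3 := h1 v
  rw [h2] at h3
  have h4 : (ψ - φ) v • x = 0 := by simpa using h3
  exact (sub_eq_zero.1 ((smul_eq_zero.1 h4).resolve_right hx)).symm

theorem rf_symm (h2 : (2 : F) ≠ 0) (hN : NoTv (SLg F V) Ω) {w : Ω} {x y : V} (hy : y ≠ 0)
    {φ ψ : Dual F V} (h : Rf w x φ) (h' : Rf w y ψ) (e : φ y = 0) : ψ x = 0 := by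
  obtain ⟨a, g, b, c⟩ := h
  have h1 : g.1 y = -y := by rw [b, e, zero_smul, add_zero]
  have h3 : g.1 x = x := by rw [b, a]; module
  have h4 : ∀ v, g.1 (g.1 v) = v := fun v => by
    rw [b, b, map_add, map_neg, map_smul, a, smul_eq_mul]; module
  have h5 := rf_eq hN hy h' (ψ := -(ψ ∘ₗ g.1.toLinearMap)) ⟨by simp [h1, h'.1], by
    obtain ⟨-, g', b', c'⟩ := h'
    refine ⟨g * g' * g, fun v => ?_, by rw [mul_smul, mul_smul, c, c', c]⟩
    change g.1 (g'.1 (g.1 v)) = _
    rw [b', map_add, map_neg, map_smul, h4, h1]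
    simp⟩
  have h6 : ψ x = -ψ x := by simpa [h3] using congrArg (fun f : Dual F V => f x) h5
  exact (mul_eq_zero.1 (show 2 * ψ x = 0 by linear_combination h6)).resolve_left h2

theorem jobFr : JobFr := by
  intro F V Ω _ _ _ _ _ _ _ h3 h2 hN hV ho
  classical
  obtain ⟨w⟩ : Nonempty Ω := (Nat.card_pos_iff.1 ho.pos).1
  haveI : Finite V := Module.finite_of_finite F
  let _ := Fintype.ofFinite V
  choose! f hf using fun x : V => ex_rf (F := F) h3 hV ho w (x := x)
  let φ : V → Dual F V := fun x => if x = 0 then 0 else f x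
  have hs : ∀ x y, φ x y = 0 → φ y x = 0 := fun x y h => by
    by_cases hx : x = 0
    · rw [hx, map_zero]
    by_cases hy : y = 0
    · simp [φ, hy]
    simp only [φ, if_neg hx, if_neg hy] at h ⊢
    exact rf_symm h2 hN hy (hf x hx) (hf y hy) h
  let M : Matrix V V F := fun x y => if φ x y = 0 then 1 else 0
  have h1 : M * M = 0 := by
    ext x y
    have e : (M * M) x y = (Fintype.card (LinearMap.ker ((φ x).prod (φ y))) : F) := by
      rw [Matrix.mul_apply, Fintype.card_subtype, Finset.card_filter, Nat.cast_sum]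
      refine Finset.sum_congr rfl fun z _ => ?_
      have k : φ z y = 0 ↔ φ y z = 0 := ⟨hs _ _, hs _ _⟩
      by_cases a : φ x z = 0 <;> by_cases b : φ y z = 0 <;> simp [M, k, a, b]
    have h4 : LinearMap.ker ((φ x).prod (φ y)) ≠ ⊥ :=
      LinearMap.ker_ne_bot_of_finrank_lt (by simp [h3])
    rw [e, Module.card_eq_pow_finrank (K := F), Nat.cast_pow, FiniteField.cast_card_eq_zero,
      zero_pow (mt Submodule.finrank_eq_zero.1 h4)]
    rfl
  have h4 := (Matrix.isNilpotent_trace_of_isNilpotent (M := M) ⟨2, by rw [pow_two, h1]⟩).eq_zero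
  rw [Matrix.trace, Finset.sum_eq_single 0 (fun x _ hx => by
    simp [Matrix.diag, M, φ, hx, (hf x hx).1, h2]) (by simp)] at h4
  simp [Matrix.diag, M] at h4

end H46.CKFr
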