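import Cfsg.Agent.H46.CKFr

/-! CKS (S2193), slot CKL-SK: `Sp_2m(q)` on `q^(2m)` points. -/

set_option autoImplicit false
set_option linter.unusedSectionVars false

open Module MulAction H54 H26.ML H26.MS H56.CK

namespace H46.CKSK

section

variable {F V Ω : Type} [Field F] [AddCommGroup V] [Module F V] {B : LinearMap.BilinForm F V}
  (hA : B.IsAlt) [MulAction (Isom B) Ω] [Finite Ω]

/-- the transvection at `v` -/
noncomputable def tt (v : V) : Isom B := ⟨ee hA v 0 1, ee_mem hA v 0 1⟩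

theorem tt_apply (v x : V) : (tt hA v).1 x = x + B v x • v := by
  rw [tt, tv_apply, one_mul]

theorem tt_conj (g : Isom B) (v : V) : tt hA (g.1 v) = g * tt hA v * g⁻¹ := Subtype.ext (by
  have := conj_ee hA g.2 v 0 1
  rw [map_zero] at this
  exact this.symm)

theorem nofix (hB : B.Nondegenerate) (hN : NoTv (Isom B) Ω) {v : V} (hv : v ≠ 0) (a : Ω) :
    tt hA v • a ≠ a := fun h => by
  have h1 := hN (tt hA v) (B v) v (hA v) (tt_apply hA v) a h
  refine hv (hB.1 v fun x => ?_)
  have h2 := tt_apply hA v x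
  rw [h1] at h2
  have h3 : B v x • v = 0 := by simpa using h2
  exact (smul_eq_zero.1 h3).resolve_right hv

theorem one [Finite V] (hB : B.Nondegenerate) (hL : LM (Isom B) Ω) (hN : NoTv (Isom B) Ω)
    (hc : Nat.card Ω = Nat.card V) (a b : Ω) (hb : b ≠ a) :
    Nat.card {x : {v : V // v ≠ 0} // tt hA x.1 • a = b} = 1 := by
  classical
  obtain ⟨r, h1, h2⟩ := count hL.two (fun x : {v : V // v ≠ 0} => tt hA x.1) (fun g =>
    ⟨fun x => ⟨g.1 x.1, by simpa using x.2⟩, fun x y h => Subtype.ext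
      (g.1.injective (congrArg Subtype.val h)), fun x => tt_conj hA g x.1⟩) a
  haveI : IsEmpty {x : {v : V // v ≠ 0} // tt hA x.1 • a = a} :=
    ⟨fun x => nofix hA hB hN x.1.2 a x.2⟩
  have h3 : Nat.card {v : V // v ≠ 0} = Nat.card V - 1 := by
    let _ := Fintype.ofFinite V
    rw [Nat.card_eq_fintype_card, Nat.card_eq_fintype_card, Fintype.card_subtype_compl,
      Fintype.card_subtype_eq]
  haveI := hL.nt
  have h4 : 1 < Nat.card Ω := Finite.one_lt_card
  rw [h3, Nat.card_of_isEmpty (α := {x : {v : V // v ≠ 0} // tt hA x.1 • a = a}), zero_add,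
    ← hc] at h2
  rw [h1 b hb]
  exact Nat.eq_of_mul_eq_mul_right (show 0 < Nat.card Ω - 1 by omega) (by rw [← h2, one_mul])

theorem uniq [Finite V] (hB : B.Nondegenerate) (hL : LM (Isom B) Ω) (hN : NoTv (Isom B) Ω)
    (hc : Nat.card Ω = Nat.card V) {a : Ω} {v w : V} (hv : v ≠ 0) (hw : w ≠ 0)
    (e : tt hA v • a = tt hA w • a) : v = w := by
  have := (Nat.card_eq_one_iff_unique.1 (one hA hB hL hN hc a _ (nofix hA hB hN hw a))).1
  exact congrArg (fun x => x.1.1) (this.elim ⟨⟨v, hv⟩, e⟩ ⟨⟨w, hw⟩, rfl⟩)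

include hA in
theorem even [Finite V] (hB : B.Nondegenerate) (hL : LM (Isom B) Ω) (hN : NoTv (Isom B) Ω)
    (hc : Nat.card Ω = Nat.card V) (h2 : (2 : F) = 0) (h3 : ¬ 3 ∣ Nat.card Ω) (s : Isom B)
    (s3 : s ^ 3 = 1) (sf : ∀ v, s.1 v = v → v = 0) (a : V) (ha : B a (s.1 a) = 1)
    (hs : s.1 (s.1 a) = s.1 a + a) : False := by
  haveI := Fact.mk Nat.prime_three
  obtain ⟨w, hw⟩ := H46.CKFr.fix (Ω := Ω) 3 s3 h3
  have a0 : a ≠ 0 := fun e => by simp [e] at ha
  have k : ∀ w', s • w' = w' → w' = w := fun w' h => by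
    by_contra hne
    obtain ⟨⟨⟨v, hv⟩, e⟩⟩ := (Nat.card_eq_one_iff_unique.1 (one hA hB hL hN hc w w' hne)).2
    refine hv (sf v (uniq hA hB hL hN hc (a := w) (by simpa using hv) hv ?_))
    rw [tt_conj, mul_smul, mul_smul, inv_smul_eq_iff.2 hw.symm, e, h]
  have e1 : tt hA (s.1 (s.1 a)) = tt hA a * tt hA (s.1 a) * (tt hA a)⁻¹ := by
    rw [← tt_conj, tt_apply, ha, one_smul, hs]
  have e2 : tt hA a = s * tt hA (s.1 (s.1 a)) * s⁻¹ := by
    rw [← tt_conj]
    exact congrArg (tt hA) (congrArg (fun g : Isom B => g.1 a) s3).symm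
  have e3 : tt hA a * tt hA a = 1 := Subtype.ext (LinearEquiv.ext fun x => by
    change (tt hA a).1 ((tt hA a).1 x) = x
    rw [tt_apply, tt_apply, map_add, map_smul, hA a, smul_zero, add_zero, add_assoc, ← two_smul F,
      h2, zero_smul, add_zero])
  have e4 := tt_conj hA s a
  set c := tt hA (s.1 (s.1 a))
  set b := tt hA (s.1 a)
  set t := tt hA a
  have e5 : s * (c * t) = c * t * s := by
    calc s * (c * t) = (s * c * s⁻¹) * (s * t * s⁻¹) * s := by group
      _ = _ := by rw [← e2, ← e4, e1]; group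
  have e6 : (c * t) • w = w := k _ (by rw [← mul_smul, e5, mul_smul, hw])
  have e7 : t * s * t = s * (c * t) := by
    conv_lhs => rw [show t * s = s * c by rw [e2]; group]
    rw [mul_assoc]
  refine nofix hA hB hN a0 w (k _ ?_)
  rw [← mul_smul, show s * t = t * (t * s * t) by rw [← mul_assoc, ← mul_assoc, e3, one_mul], e7,
    mul_smul, mul_smul, e6, hw]

end

/-- the element of order three -/
def sg (F : Type) [Field F] (m : ℕ) : (Fin m ⊕ Fin m → F) ≃ₗ[F] (Fin m ⊕ Fin m → F) where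
  toFun v := Sum.elim (fun i => v (.inr i)) fun i => -v (.inl i) - v (.inr i)
  invFun v := Sum.elim (fun i => -v (.inl i) - v (.inr i)) fun i => v (.inl i)
  map_add' u v := by ext (i | i) <;> simp; ring
  map_smul' c v := by ext (i | i) <;> simp; ring
  left_inv v := by ext (i | i) <;> simp only [Sum.elim_inl, Sum.elim_inr]; ring
  right_inv v := by ext (i | i) <;> simp only [Sum.elim_inl, Sum.elim_inr]; ring

theorem jobSK : JobSK := by
  intro F Ω _ _ m _ _ hm hL hN hc
  classical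
  have hc' : Nat.card Ω = Nat.card (Fin m ⊕ Fin m → F) := by
    rw [hc, Nat.card_fun, Nat.card_eq_fintype_card, Nat.card_eq_fintype_card, Fintype.card_sum,
      Fintype.card_fin, two_mul]
  let a : Fin m ⊕ Fin m → F := Pi.single (.inl ⟨0, hm⟩) 1
  have a0 : a ≠ 0 := fun e => by simpa [a] using congrFun e (.inl ⟨0, hm⟩)
  have l : ∀ v i, sg F m v (.inl i) = v (.inr i) := fun _ _ => rfl
  have r : ∀ v i, sg F m v (.inr i) = -v (.inl i) - v (.inr i) := fun _ _ => rfl
  by_cases h2 : (2 : F) = 0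
  · haveI : CharP F 2 := CharTwo.of_one_ne_zero_of_two_eq_zero one_ne_zero h2
    obtain ⟨k, -, hk⟩ := FiniteField.card F 2
    refine even spB_isAlt spB_nondegenerate hL hN hc' h2 (fun h => ?_) ⟨sg F m, fun u v => ?_⟩ ?_
      (fun v h => ?_) a ?_ ?_
    · rw [hc, hk, ← pow_mul] at h
      exact absurd (Nat.prime_three.dvd_of_dvd_pow h) (by decide)
    · rw [spB_eq_sum, spB_eq_sum]
      exact Finset.sum_congr rfl fun i _ => by rw [l, l, r, r]; ring
    · refine Subtype.ext (LinearEquiv.ext fun v => ?_)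
      change sg F m (sg F m (sg F m v)) = v
      ext (i | i) <;> simp only [l, r] <;> ring
    · have h3 : ∀ i, v (.inr i) = v (.inl i) := fun i => congrFun h (.inl i)
      have h4 : ∀ i, v (.inr i) = 0 := fun i => by
        have := congrFun h (.inr i)
        change -v (.inl i) - v (.inr i) = _ at this
        linear_combination -this + h3 i - v (.inr i) * h2
      ext (i | i)
      · rw [← h3, h4]; rfl
      · exact h4 i
    · change spB (Fin m) F a (sg F m a) = 1
      rw [spB_eq_sum, Finset.sum_eq_single ⟨0, hm⟩ (fun i _ hi => by simp [l, r, a, hi]) (by simp)]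
      simp [l, r, a]
    · change sg F m (sg F m a) = sg F m a + a
      ext (i | i) <;> simp [l, r, a, Pi.single_apply, CharTwo.neg_eq]
  · haveI := hL.nt
    obtain ⟨w⟩ : Nonempty Ω := inferInstance
    have h3 := uniq spB_isAlt spB_nondegenerate hL hN hc' (a := w) a0 (neg_ne_zero.2 a0) (by
      congr 1
      exact Subtype.ext (LinearEquiv.ext fun x => by rw [tt_apply, tt_apply]; simp))
    have h4 := congrFun h3 (.inl ⟨0, hm⟩)
    simp only [a, Pi.neg_apply, Pi.single_eq_same] at h4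
    exact h2 (by linear_combination h4)

end H46.CKSK
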