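import Cfsg.Agent.H91.CL3Spec

/-! CL3 tower (row S3621): the Hamming graph step `JobHAM`. -/

set_option autoImplicit false

open H91.CL
open scoped Pointwise

namespace H46.CL

variable {G V : Type} [Group G] [AddCommGroup V] [DistribMulAction G V] {J : Set (AddSubgroup V)}

theorem mem_rest {A B : AddSubgroup V} (hB : B ∈ J) (h : B ≠ A) {x : V} (hx : x ∈ B) :
    x ∈ sSup (J \ {A}) := le_sSup (s := J \ {A}) ⟨hB, h⟩ hx

theorem eq_zero (d : Dec G J) {A : AddSubgroup V} (hA : A ∈ J) {x : V} (hx : x ∈ A)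
    (h : x ∈ sSup (J \ {A})) : x = 0 := AddSubgroup.disjoint_def.1 (d.ind hA) hx h

theorem key (d : Dec G J) {h : Equiv.Perm V} (t : T3 G h) {W W' : AddSubgroup V} (hW : W ∈ J)
    (hW' : W' ∈ J) (ne : W' ≠ W) {u w : V} (hu : u ∈ W) (hw : w ∈ W') (x : V) :
    h (x + w + u) - h (x + w) = h (x + u) - h x := by
  rcases eq_or_ne u 0 with rfl | u0
  · simp
  obtain ⟨c, g, a1, a2, a3⟩ := t (x + w + u) (x + u) (x + w)
  obtain ⟨c', g', b1, b2, b3⟩ := t x (x + u) (x + w)
  have e1 : h (x + w + u) - h (x + w) = g • u := by rw [a1, a3, smul_add g (x + w)]; abel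
  have e2 : h (x + u) - h x = g' • u := by rw [b1, b2, smul_add]; abel
  have e3 : h (x + w) - h x = g' • w := by rw [b1, b3, smul_add]; abel
  have e4 : h (x + w + u) - h (x + u) = g • w := by
    rw [a1, a2, add_right_comm, smul_add g (x + u)]; abel
  have e : g' • u + g • w = g • u + g' • w := by rw [← e1, ← e2, ← e3, ← e4]; abel
  have m : ∀ (k : G) {A : AddSubgroup V} {y : V}, y ∈ A → k • y ∈ k • A := fun k _ _ hy =>
    AddSubgroup.smul_mem_pointwise_smul _ k _ hy
  have n : ∀ k : G, k • W' ≠ k • W := fun k e => ne (MulAction.injective k e)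
  rw [e1, e2]
  by_cases h1 : g • W = g' • W
  · have := eq_zero d (d.perm g' W hW) (sub_mem (m g' hu) (h1 ▸ m g hu)) (by
      rw [show g' • u - g • u = g' • w - g • w by
        rw [sub_eq_sub_iff_add_eq_add, e, add_comm]]
      exact sub_mem (mem_rest (d.perm g' _ hW') (n g') (m g' hw))
        (mem_rest (d.perm g _ hW') (h1 ▸ n g) (m g hw)))
    exact (sub_eq_zero.1 this).symm
  have h2 : g • u + g' • w ∈ sSup (J \ {g' • W}) :=
    add_mem (mem_rest (d.perm g _ hW) h1 (m g hu)) (mem_rest (d.perm g' _ hW') (n g') (m g' hw))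
  exfalso
  by_cases h3 : g • W' = g' • W
  · have h4 := eq_zero d (d.perm g' W hW) (add_mem (m g' hu) (h3 ▸ m g hw)) (e ▸ h2)
    rw [e, ← e1, ← e3, sub_add_sub_cancel, sub_eq_zero, h.injective.eq_iff, add_assoc, add_eq_left,
      add_eq_zero_iff_neg_eq] at h4
    exact ne (d.eq hW' hW u0 (h4 ▸ neg_mem hw) hu)
  · have h4 := eq_zero d (d.perm g' W hW) (m g' hu) (by
      rw [eq_sub_of_add_eq e]
      exact sub_mem h2 (mem_rest (d.perm g _ hW') h3 (m g hw)))
    exact u0 ((smul_eq_zero_iff_eq g').1 h4)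

theorem jobHAM : JobHAM := fun V G _ _ _ _ _ J d h h0 t ha => by
  have h1 : ∀ W ∈ J, ∀ u ∈ W, ∀ x, h (x + u) = h x + h u := fun W hW u hu x => by
    let P : AddSubgroup V :=
      { carrier := {w | ∀ x, h (x + w + u) - h (x + w) = h (x + u) - h x}
        zero_mem' := fun x => by simp
        add_mem' := fun {a b} ha hb x => by rw [← add_assoc, hb, ha]
        neg_mem' := fun {a} ha x => by rw [← ha (x + -a), neg_add_cancel_right] }
    have h2 : sSup (J \ {W}) ≤ P := sSup_le fun W' hW' w hw x => key d t hW hW'.1 hW'.2 hu hw x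
    have h3 : x ∈ W ⊔ sSup (J \ {W}) := by
      rw [← sSup_insert, Set.insert_diff_singleton, Set.insert_eq_of_mem hW, d.top]; trivial
    obtain ⟨y, hy, z, hz, rfl⟩ := AddSubgroup.mem_sup.1 h3
    have h4 := h2 hz y
    rw [ha W hW y hy u hu, add_sub_cancel_left] at h4
    rw [← h4, add_sub_cancel]
  let Q : AddSubgroup V :=
    { carrier := {u | ∀ x, h (x + u) = h x + h u}
      zero_mem' := fun x => by simp [h0]
      add_mem' := fun {a b} ha hb x => by rw [← add_assoc, hb, ha, hb, add_assoc]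
      neg_mem' := fun {a} ha x => by
        have h2 := ha (x + -a)
        have h3 := ha (-a)
        rw [neg_add_cancel_right] at h2
        rw [neg_add_cancel, h0] at h3
        rw [h2, add_assoc, add_comm (h a), ← h3, add_zero] }
  have h2 : sSup J ≤ Q := sSup_le fun W hW u hu => h1 W hW u hu
  exact fun x y => h2 (d.top ▸ AddSubgroup.mem_top y) x

end H46.CL
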