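import Cfsg.Agent.H36.E7MSpec

/-! E7MAX (S5934): `JobDI`. -/

set_option autoImplicit false

open H36.E7M Module

namespace H46.E7DI

theorem ev_fix (p : P1) {a b : G} {v : LA} (h : Ev a v) (c : Commute a b) : ρ b v = v := by
  obtain ⟨w, rfl, rfl⟩ := h
  have h1 : Commute (cj w⁻¹ b) z := by
    rw [← commute_cj (g := w), cj_cj_inv]; exact c.symm
  have h2 := congrArg (ρ w) (p.cze _ h1)
  rwa [← Module.End.mul_apply, ← map_mul, show w * cj w⁻¹ b = b * w by simp [cj, mul_assoc],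
    map_mul, Module.End.mul_apply] at h2

theorem rk_le (p : P1) {S T : Set G} (g : G) (h : ∀ a ∈ S, ∀ b ∈ T, Commute (cj g a) b) :
    finrank F (spanE S) ≤ finrank F (fixS T) := by
  have hi : Function.Injective (ρ g) := fun u v e => by
    have := congrArg (ρ g⁻¹) e
    rwa [← Module.End.mul_apply, ← Module.End.mul_apply, ← map_mul, inv_mul_cancel, map_one] at this
  rw [(Submodule.equivMapOfInjective _ hi (spanE S)).finrank_eq]
  refine Submodule.finrank_mono (Submodule.map_le_iff_le_comap.2 (Submodule.span_le.2 ?_))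
  rintro v ⟨a, ha, hv⟩
  exact fun b hb => ev_fix p (hv.cj g) (h a ha b hb)

theorem cS_ne {M : Subgroup G} (g : G) (h : M ≠ ⊤) : cS g M ≠ ⊤ := fun e => h (by
  rw [eq_top_iff]
  intro a _
  have : cj g a ∈ cS g M := e ▸ Subgroup.mem_top _
  rwa [mem_cS, cj_inv_cj] at this)

theorem jobDI : JobDI := by
  intro p a1 Y Y' M g hY hY' hb hM h1 h2
  have st := hY.st h1 hM
  have h3 : ∀ a ∈ Y', cj g a ∈ M := fun a ha => h2 (by rwa [mem_cS, cj_inv_cj])
  by_cases hz : cj g z ∈ orb M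
  · obtain ⟨m, hm, e⟩ := hz
    have c : Commute (m⁻¹ * g) z := cj_eq_iff.1 (by rw [← cj_cj, e, cj_inv_cj])
    have h4 : ∀ a ∈ Y', cj (m⁻¹ * g) a ∈ M := fun a ha => by
      rw [← cj_cj]; exact cj_mem (inv_mem hm) (h3 a ha)
    generalize m⁻¹ * g = h at c h4
    have k : ∀ a, a ∈ Y' ∧ a ∈ Q ↔ cj h a ∈ Y ∧ cj h a ∈ Q := fun a =>
      ⟨fun ha => ⟨hY.max M h1 hM ⟨h4 a ha.1, p.czQ h c a ha.2⟩, p.czQ h c a ha.2⟩, fun ha => by
        have c' : Commute h⁻¹ z := Commute.inv_left (G := G) c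
        have hq : a ∈ Q := cj_inv_cj h a ▸ p.czQ h⁻¹ c' _ ha.2
        exact ⟨hY'.max (cS h⁻¹ M) (fun b hb => by rw [mem_cS, inv_inv]; exact h4 b hb)
          (cS_ne _ hM) ⟨mem_cS.2 (by rw [inv_inv]; exact h1 ha.1), hq⟩, hq⟩⟩
    let E : G ≃ G := ⟨cj h, cj h⁻¹, cj_inv_cj h, cj_cj_inv h⟩
    refine ⟨h, c, fun a ha => ?_, (Nat.card_congr (E.subtypeEquiv k)).symm, ?_⟩
    · simpa only [cj_cj_inv] using h4 _ (mem_cS.1 ha)
    · refine (Nat.card_congr (E.subtypeEquiv fun a => ?_)).symm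
      change a ∈ Y' ∧ a ∈ Q ∧ a ∈ D ↔ cj h a ∈ Y ∧ cj h a ∈ Q ∧ cj h a ∈ D
      rw [← and_assoc, ← and_assoc, k]
      exact and_congr_right fun _ => ⟨D_cj h, fun ha => by simpa only [cj_inv_cj] using D_cj h⁻¹ ha⟩
  exfalso
  have k : ∀ a ∈ orb Y, ∀ b ∈ orb Y', Commute a (cj g b) := by
    rintro _ ⟨u, hu, rfl⟩ _ ⟨w, hw, rfl⟩
    obtain ⟨k, hk⟩ := p.r5 _ (D_cj u z_mem_D) _ (D_cj g (D_cj w z_mem_D))
    by_cases k0 : k = 0
    · exact p.pol _ _ (k0 ▸ hk)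
    obtain ⟨m, hm, e⟩ := a1 M st _ ⟨u, h1 hu, rfl⟩ _ (h3 _ (cj_mem hw hY'.z_mem)) k k0 hk
    refine absurd ⟨(cj g w)⁻¹ * m, mul_mem (inv_mem (h3 w hw)) hm, ?_⟩ hz
    rw [← cj_cj, ← e]; simp [cj, mul_assoc]
  rcases hb with hb | hb
  · have := rk_le p g⁻¹ fun a ha b hb => by
      rw [← commute_cj (g := g), cj_cj_inv]; exact k a ha b hb
    have := hY'.fix
    unfold Big at hb; omega
  · have := rk_le p g fun b hb a ha => (k a ha b hb).symm
    have := hY.fix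
    unfold Big at hb; omega

end H46.E7DI
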