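/- Tower O84: the subgroups `SL₂(4)` attached to the orbits of a twisting element of square `-1`. -/
import Cfsg.Agent.H46.O84A

set_option autoImplicit false
set_option linter.unusedSectionVars false

open Cfsg.Lie H63 H64 H65 H67 Matrix Polynomial

namespace H46.O84

section count

variable {k : Type*} [Field k]

theorem card_roots_le {p : k[X]} (hp : p ≠ 0) {n : ℕ} (hn : p.natDegree ≤ n) :
    ∃ s : Finset k, s.card ≤ n ∧ ∀ a, p.eval a = 0 → a ∈ s := by
  classical
  refine ⟨p.roots.toFinset, (Multiset.toFinset_card_le _).trans (p.card_roots'.trans hn),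
    fun a ha => ?_⟩
  rw [Multiset.mem_toFinset, mem_roots hp]; exact ha

theorem card_five (u : k) : ∃ s : Finset k, s.card ≤ 5 ∧ ∀ a, a ^ 5 = u → a ∈ s := by
  obtain ⟨s, h1, h2⟩ := card_roots_le (p := (Polynomial.X ^ 5 - Polynomial.C u : k[X]))
    (X_pow_sub_C_ne_zero (by norm_num) u)
    (natDegree_X_pow_sub_C).le
  exact ⟨s, h1, fun a ha => h2 a (by simp [ha])⟩

theorem card_ten : ∃ s : Finset k, s.card ≤ 10 ∧ ∀ a, a ^ 10 + a ^ 5 + 1 = 0 → a ∈ s := by
  obtain ⟨s, h1, h2⟩ := card_roots_le (p := (Polynomial.X ^ 10 + Polynomial.X ^ 5 + 1 : k[X]))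
    (n := 10) (fun e => by
    have := congrArg (eval 0) e
    simp at this) (by compute_degree)
  exact ⟨s, h1, fun a ha => h2 a (by simpa using ha)⟩

theorem card_sixty : ∃ s : Finset (k × k), s.card ≤ 60 ∧
    ∀ a b : k, a ^ 16 = a → a ^ 5 - b ^ 5 = 1 → (a, b) ∈ s := by
  classical
  choose N hN hN' using card_five (k := k)
  obtain ⟨s, h1, h2⟩ := card_ten (k := k)
  refine ⟨({0} ×ˢ N (-1) ∪ N 1 ×ˢ {0}) ∪ s.biUnion fun a => {a} ×ˢ N (a ^ 5 - 1), ?_,
    fun a b ha hab => ?_⟩
  · refine (Finset.card_union_le _ _).trans ?_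
    have e1 := Finset.card_union_le (({0} : Finset k) ×ˢ N (-1)) (N 1 ×ˢ ({0} : Finset k))
    rw [Finset.card_product, Finset.card_product, Finset.card_singleton] at e1
    have e2 : (s.biUnion fun a => ({a} : Finset k) ×ˢ N (a ^ 5 - 1)).card ≤ s.card * 5 :=
      Finset.card_biUnion_le_card_mul _ _ _ fun a _ => by
        rw [Finset.card_product, Finset.card_singleton, one_mul]; exact hN _
    have := hN (-1)
    have := hN 1
    omega
  · simp only [Finset.mem_union, Finset.mem_product, Finset.mem_singleton, Finset.mem_biUnion]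
    by_cases h0 : a = 0
    · exact .inl (.inl ⟨h0, hN' _ _ (by rw [h0] at hab; linear_combination -hab)⟩)
    by_cases h3 : b = 0
    · exact .inl (.inr ⟨hN' _ _ (by rw [h3] at hab; linear_combination hab), h3⟩)
    refine .inr ⟨a, h2 a ?_, rfl, hN' _ _ (by linear_combination -hab)⟩
    have h4 : a * (b ^ 5 * (a ^ 10 + a ^ 5 + 1)) = 0 := by
      linear_combination ha - a * (a ^ 10 + a ^ 5 + 1) * hab
    exact (mul_eq_zero.1 ((mul_eq_zero.1 h4).resolve_left h0)).resolve_left (pow_ne_zero _ h3)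

end count

variable {D : ChevalleyDatum} [RS D] [Tab D] [Comm D] {k : Type*} [Field k]

theorem sl_ext {G : Type*} [Group G] {φ ψ : SpecialLinearGroup (Fin 2) k →* G}
    (hU : ∀ t, φ (sl2U t) = ψ (sl2U t)) (hL : ∀ t, φ (sl2L t) = ψ (sl2L t)) (g) : φ g = ψ g := by
  induction g using sl2_induction with
  | hU t => exact hU t
  | hW =>
    have : (sl2W : SpecialLinearGroup (Fin 2) k) = sl2U 1 * sl2L (-1) * sl2U 1 := by
      ext i j; fin_cases i <;> fin_cases j <;> simp [Matrix.mul_apply, Fin.sum_univ_two]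
    rw [this, map_mul, map_mul, map_mul, map_mul, hU, hL]
  | hmul a b ha hb => rw [map_mul, map_mul, ha, hb]

variable [CharP k 2]

theorem slR_negR (r : Rt D) (g : SpecialLinearGroup (Fin 2) k) :
    slR k (negR r) g = slR k r (sl2W * g * sl2W⁻¹) := by
  refine sl_ext (φ := slR k (negR r)) (ψ := (slR k r).comp (MulAut.conj sl2W).toMonoidHom)
    (fun t => ?_) (fun t => ?_) g
  · have : sl2W * sl2U t * sl2W⁻¹ = sl2L t := by
      rw [mul_inv_eq_iff_eq_mul]
      ext i j; fin_cases i <;> fin_cases j <;> simp [Matrix.mul_apply, Fin.sum_univ_two, CharTwo.neg_eq]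
    change _ = slR k r (sl2W * sl2U t * sl2W⁻¹)
    rw [this, slR_U, slR_L]
  · have : sl2W * sl2L t * sl2W⁻¹ = sl2U t := by
      rw [mul_inv_eq_iff_eq_mul]
      ext i j; fin_cases i <;> fin_cases j <;> simp [Matrix.mul_apply, Fin.sum_univ_two, CharTwo.neg_eq]
    change _ = slR k r (sl2W * sl2L t * sl2W⁻¹)
    rw [this, slR_U, slR_L, negR_negR]

theorem slR_inj (hadj : ∀ r : Rt D, ∃ s : Rt D, D.pairing r s = 1) (r : Rt D) :
    Function.Injective (slR k r) := by
  rcases pos_or_pos_negR r with h | h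
  · obtain ⟨s, hs⟩ := hadj r
    exact slR_injective h hs
  · obtain ⟨s, hs⟩ := hadj (negR r)
    intro a b e
    have e' : slR k (negR (negR r)) a = slR k (negR (negR r)) b := by rwa [negR_negR]
    rw [slR_negR (negR r) a, slR_negR (negR r) b] at e'
    have e2 := slR_injective (F := k) h hs e'
    exact mul_left_cancel (mul_right_cancel e2)

/-- The Frobenius map of `SL₂`. -/
noncomputable def frS : SpecialLinearGroup (Fin 2) k →* SpecialLinearGroup (Fin 2) k :=
  SpecialLinearGroup.map (frobenius k 2)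

theorem frS_apply (g : SpecialLinearGroup (Fin 2) k) (i j : Fin 2) : frS g i j = g i j ^ 2 := rfl

theorem sig_slR (L : List ℕ) (r : Rt D) (g : SpecialLinearGroup (Fin 2) k) :
    sig D k L (slR k r g) = slR k ((wW D L).1 r) (frS g) := by
  refine sl_ext (φ := (sig D k L).comp (slR k r)) (ψ := (slR k ((wW D L).1 r)).comp frS)
    (fun t => ?_) (fun t => ?_) g
  · have : frS (sl2U t) = sl2U (t ^ 2) := by
      ext i j; fin_cases i <;> fin_cases j <;> simp [frS_apply]
    rw [MonoidHom.comp_apply, MonoidHom.comp_apply, this, slR_U, slR_U, sig_x]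
  · have : frS (sl2L t) = sl2L (t ^ 2) := by
      ext i j; fin_cases i <;> fin_cases j <;> simp [frS_apply]
    rw [MonoidHom.comp_apply, MonoidHom.comp_apply, this, slR_L, slR_L, sig_x,
      (isLin_W _).apply_negR]

omit [Tab D] [Comm D] in
theorem orth {w : (H64.wdata D).W} (hw : ∀ r, w.1 (w.1 r) = negR r) (a : Rt D) :
    D.pairing a (w.1 a) = 0 := by
  have h := (isLin_W w).pairing_apply a (w.1 a)
  rw [hw, negR_val, pairing_negR_right] at h
  have h1 := pairing_pos_comm (r := a) (s := w.1 a)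
  have h2 := pairing_neg_comm (r := a) (s := w.1 a)
  omega

theorem slR_comm_of_orth (hlen : ∀ r s : Rt D, len r = len s) {a b : Rt D}
    (h : D.pairing a b = 0) (g g' : SpecialLinearGroup (Fin 2) k) :
    slR k a g * slR k b g' = slR k b g' * slR k a g := by
  refine slR_comm (fun a' ha b' hb => ?_) g g'
  have h0 : D.pairing a' b' = 0 := by
    have hn : D.pairing a (negR b : Rt D) = 0 := by rw [negR_val, pairing_negR_right, h, neg_zero]
    rcases ha with rfl | rfl <;> rcases hb with rfl | rfl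
    · exact h
    · exact hn
    · rw [negR_val, pairing_negR_left, h, neg_zero]
    · rw [negR_val, pairing_negR_left, hn, neg_zero]
  refine ⟨fun e => by rw [e, pairing_self] at h0; omega, fun c i j hi hj e => ?_⟩
  have h1 : form (rt a') (rt b') = 0 := by rw [← len_mul_pairing, h0, mul_zero]
  have h2 := form_rt_self c
  rw [e, form_add_left, form_add_right, form_add_right, form_smul_left, form_smul_left,
    form_smul_left, form_smul_left, form_smul_right, form_smul_right, form_smul_right,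
    form_smul_right, form_symm (rt b') (rt a'), h1, form_rt_self, form_rt_self, hlen a' c,
    hlen b' c] at h2
  have h3 := len_pos c
  have h4 : 1 ≤ i * i := by nlinarith
  have h5 : 1 ≤ j * j := by nlinarith
  nlinarith

/-- The orbit of a root under `w`. -/
def Orb (w : (H64.wdata D).W) (a : Rt D) : Set (Rt D) := {a, negR a} ∪ {w.1 a, negR (w.1 a)}

variable (k) in
/-- The subgroup attached to an orbit. -/
noncomputable def KK (L : List ℕ) (a : Rt D) : Subgroup ↥(Gam D k L) :=
  (gen (XR D (xG D k)) (Orb (wW D L) a)).subgroupOf (Gam D k L)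

theorem card_KK {L : List ℕ} (hw : ∀ r, (wW D L).1 ((wW D L).1 r) = negR r)
    (hlen : ∀ r s : Rt D, len r = len s) (hadj : ∀ r : Rt D, ∃ s : Rt D, D.pairing r s = 1)
    (a : Rt D) : Finite (KK k L a) ∧ Nat.card (KK k L a) ≤ 60 := by
  have hc := slR_comm_of_orth (k := k) hlen (orth hw a)
  obtain ⟨s, hs, hs'⟩ := card_sixty (k := k)
  have key : ∀ y : KK k L a, ∃ p : s, ∃ g : SpecialLinearGroup (Fin 2) k,
      g 0 0 = p.1.1 ∧ g 0 1 = p.1.2 ∧ g 1 0 = p.1.2 ^ 4 ∧ g 1 1 = p.1.1 ^ 4 ∧
      y.1.1 = slR k a g * slR k ((wW D L).1 a) (frS g) := by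
    rintro ⟨⟨y, hy⟩, hy'⟩
    replace hy' : y ∈ gen (XR D (xG D k)) ({a, negR a} ∪ {(wW D L).1 a, negR ((wW D L).1 a)}) := hy'
    rw [gen_union, ← range_slR, ← range_slR] at hy'
    obtain ⟨g, g', rfl⟩ : ∃ g g', slR k a g * slR k ((wW D L).1 a) g' = y := by
      have : (slR k a).range ⊔ (slR k ((wW D L).1 a)).range ≤
          ((slR k a).noncommCoprod (slR k ((wW D L).1 a)) hc).range :=
        (MonoidHom.noncommCoprod_range _ _ hc).ge
      obtain ⟨⟨g, g'⟩, e⟩ := this hy'
      exact ⟨g, g', e⟩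
    rw [mem_Gam, map_mul, sig_slR, sig_slR, hw, slR_negR, ← hc] at hy
    have h1 : slR k a (g⁻¹ * (sl2W * frS g' * sl2W⁻¹)) =
        slR k ((wW D L).1 a) (g' * (frS g)⁻¹) := by
      rw [map_mul, map_mul _ g', map_inv, map_inv, inv_mul_eq_iff_eq_mul, ← mul_assoc, ← hy,
        mul_inv_cancel_right]
    have h2 : g⁻¹ * (sl2W * frS g' * sl2W⁻¹) = 1 := by
      rcases H61.sl_mem_center_iff.1 (Subgroup.mem_center_iff.2 fun z => slR_inj hadj a
        (show slR k a (z * (g⁻¹ * (sl2W * frS g' * sl2W⁻¹))) =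
          slR k a (g⁻¹ * (sl2W * frS g' * sl2W⁻¹) * z) by
          rw [map_mul _ z, map_mul _ _ z, h1, hc])) with e | e
      · exact e
      · rw [e]
        ext i j; fin_cases i <;> fin_cases j <;> simp [CharTwo.neg_eq]
    rw [h2, map_one] at h1
    have h3 : g' = frS g := mul_inv_eq_one.1 (slR_inj hadj _ (h1.symm.trans (map_one _).symm))
    subst h3
    rw [inv_mul_eq_one, eq_mul_inv_iff_mul_eq] at h2
    have h4 := fun i j => congrFun (congrFun (congrArg Subtype.val h2) i) j
    have h00 := h4 0 0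
    have h01 := h4 0 1
    have h10 := h4 1 0
    have h11 := h4 1 1
    simp [Matrix.mul_apply, Fin.sum_univ_two, frS_apply, CharTwo.neg_eq, ← pow_mul] at h00 h01 h10 h11
    have hd := sl2_det g
    refine ⟨⟨(g 0 0, g 0 1), hs' _ _ ?_ ?_⟩, g, rfl, rfl, h11, h10, rfl⟩
    · rw [show 16 = 4 * 4 from rfl, pow_mul, ← h10, ← h01]
    · rw [h10, h11] at hd
      linear_combination hd
  choose f hf using key
  have hinj : Function.Injective f := fun y z e => by
    obtain ⟨g, h1, h2, h3, h4, h5⟩ := hf y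
    obtain ⟨g', h1', h2', h3', h4', h5'⟩ := hf z
    have : g = g' := by
      ext i j; fin_cases i <;> fin_cases j <;> simp [h1, h2, h3, h4, h1', h2', h3', h4', e]
    exact Subtype.ext (Subtype.ext (by rw [h5, h5', this]))
  refine ⟨Finite.of_injective f hinj, (Nat.card_le_card_of_injective f hinj).trans ?_⟩
  simpa using hs

end H46.O84
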