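/- Tower O84: normalisers and centralisers of families of torus elements. -/
import Cfsg.Agent.H46.O84B

set_option autoImplicit false
set_option linter.unusedSectionVars false

open Cfsg.Lie H63 H64 H65 H67
open scoped commutatorElement Pointwise

namespace H46.O84

variable {D : ChevalleyDatum} [RS D] [Tab D] [Comm D] {k : Type*} [Field k]

omit [Tab D] [Comm D] in
theorem chi_lin {A : Type*} [CommGroup A] (v : (H64.wdata D).W) {c c' : Fin D.rank → A}
    (h : ∀ j, chi D c' (v.1 (simpleR j)) = chi D c (simpleR j : Rt D)) (r : Rt D) :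
    chi D c' (v.1 r) = chi D c r := by
  have key : ∀ s : Rt D, chi D c' s = ev D (fun j => chi D c' (D.simple j)) (rt s) :=
    fun s => chi_eq_prod c' s
  rw [key, (isLin_W v).rt_apply, ev_sum, chi_eq_prod]
  exact Finset.prod_congr rfl fun j _ => by rw [ev_smul, ← key, h]; rfl

omit [Tab D] [Comm D] in
theorem chi_refl {A : Type*} [CommGroup A] (c : Fin D.rank → A) (a s : Rt D) :
    chi D c (refl a s) = chi D c s * (chi D c a ^ D.pairing a s)⁻¹ := by
  have key : ∀ s : Rt D, chi D c s = ev D (fun j => chi D c (D.simple j)) (rt s) :=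
    fun s => chi_eq_prod c s
  rw [key, rt_refl, ev_sub, ev_smul, ← key, ← key]

theorem exists_act {ι : Type*} {g : ↥(D.group k)} {c c' : ι → Fin D.rank → kˣ}
    (hreg : ∀ r : Rt D, ∃ i, chi D (c i) r ≠ 1) (e : ∀ i, g * torG D k (c i) = torG D k (c' i) * g) :
    ∃ v : (H64.wdata D).W, g ∈ (stBG (D := D) (k := k)).rgd.N ∧ stBG.rgd.Act g v ∧
      ∀ i (r : Rt D), chi D (c' i) (v.1 r) = chi D (c i) r := by
  obtain ⟨w, a, ha, m, hm, b, hb, hw, e', rfl⟩ :=
    torOK_xG.nf stBG (GG_xG (D := D) (F := k) ▸ Subgroup.mem_top g) e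
  have h0 := fun i => torOK_xG.chi_conj stBG hm hw (e' i)
  have h1 : {r : Rt D | Pos r ∧ ∀ i, chi D (c' i) r = 1} = ∅ := by
    refine Set.eq_empty_of_forall_notMem fun r hr => ?_
    obtain ⟨i, hi⟩ := hreg (w⁻¹.1 r)
    exact hi (by rw [← h0]; simpa using hr.2 i)
  have h2 : {r : Rt D | r ∈ (H64.wdata D).Inv w ∧ ∀ i, chi D (c i) r = 1} = ∅ := by
    refine Set.eq_empty_of_forall_notMem fun r hr => ?_
    obtain ⟨i, hi⟩ := hreg r
    exact hi (hr.2 i)
  rw [h1, gen_empty, Subgroup.mem_bot] at ha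
  rw [h2, gen_empty, Subgroup.mem_bot] at hb
  subst ha hb
  rw [one_mul, mul_one]
  exact ⟨w, hm, hw, h0⟩

theorem conj_gen {g : ↥(D.group k)} {v : (H64.wdata D).W} (h : stBG.rgd.Act g v)
    {S S' : Set (Rt D)} (hS : ∀ r ∈ S, v.1 r ∈ S') {y : ↥(D.group k)}
    (hy : y ∈ gen (XR D (xG D k)) S) : g * y * g⁻¹ ∈ gen (XR D (xG D k)) S' :=
  conj_mem_of_gen (fun r hr z hz => le_gen _ (hS r hr) ((h r z).1 hz)) hy

theorem commutator_le_gen (S : Set (Rt D)) :
    ⁅gen (XR D (xG D k)) S ⊔ HH D (xG D k), gen (XR D (xG D k)) S ⊔ HH D (xG D k)⁆ ≤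
      gen (XR D (xG D k)) S := by
  have h : StB D (xG D k) := stBG
  have e := Subgroup.coe_mul_of_right_le_normalizer_left (gen (XR D (xG D k)) S) (HH D (xG D k))
    (h.rgd.H_le_normalizer_gen S)
  refine Subgroup.commutator_le.2 fun y hy z hz => ?_
  rw [← SetLike.mem_coe, e] at hy hz
  obtain ⟨u, hu, a, ha, rfl⟩ := hy
  obtain ⟨u', hu', a', ha', rfl⟩ := hz
  have h1 := h.rgd.h_conj_gen ha hu'
  have h2 := h.rgd.h_conj_gen ha' (inv_mem hu)
  obtain ⟨c, rfl⟩ := torOK_xG.exists h.toStN ha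
  obtain ⟨c', rfl⟩ := torOK_xG.exists h.toStN ha'
  have h3 : torG D k c * torG D k c' * (torG D k c)⁻¹ = torG D k c' := by
    rw [← map_mul, mul_comm c, map_mul, mul_inv_cancel_right]
  have h4 : ⁅u * torG D k c, u' * torG D k c'⁆ = u * (torG D k c * u' * (torG D k c)⁻¹) *
      ((torG D k c * torG D k c' * (torG D k c)⁻¹) * u⁻¹ * (torG D k c')⁻¹) * u'⁻¹ := by
    rw [commutatorElement_def]; group
  change ⁅u * torG D k c, u' * torG D k c'⁆ ∈ _
  rw [h4, h3]
  exact mul_mem (mul_mem (mul_mem hu h1) h2) (inv_mem hu')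

theorem conj_mem_of_comm {ι : Type*} {g : ↥(D.group k)} {c : ι → Fin D.rank → kˣ}
    (e : ∀ i, g * torG D k (c i) = torG D k (c i) * g) {y : ↥(D.group k)}
    (hy : y ∈ gen (XR D (xG D k)) {r | ∀ i, chi D (c i) r = 1} ⊔ HH D (xG D k)) :
    g * y * g⁻¹ ∈ gen (XR D (xG D k)) {r | ∀ i, chi D (c i) r = 1} ⊔ HH D (xG D k) := by
  have h : StB D (xG D k) := stBG
  obtain ⟨w, a, ha, m, hm, b, hb, hw, e', rfl⟩ :=
    torOK_xG.nf stBG (GG_xG (D := D) (F := k) ▸ Subgroup.mem_top g) e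
  have h0 := fun i => torOK_xG.chi_conj stBG hm hw (e' i)
  set C := gen (XR D (xG D k)) {r | ∀ i, chi D (c i) r = 1} ⊔ HH D (xG D k) with hC
  have ha' : a ∈ C := Subgroup.mem_sup_left (gen_mono _ (fun r hr => hr.2) ha)
  have hb' : b ∈ C := Subgroup.mem_sup_left (gen_mono _ (fun r hr => hr.2) hb)
  have hm' : C ≤ C.comap (MulAut.conj m).toMonoidHom := sup_le
    (fun z hz => Subgroup.mem_sup_left (conj_gen hw (S := {r | ∀ i, chi D (c i) r = 1})
      (S' := {r | ∀ i, chi D (c i) r = 1}) (fun r hr i => (h0 i r).trans (hr i)) hz))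
    fun z hz => Subgroup.mem_sup_right ((stBG (D := D) (k := k)).rgd.conj_H hm hz)
  have h1 : m * (b * y * b⁻¹) * m⁻¹ ∈ C := hm' (mul_mem (mul_mem hb' hy) (inv_mem hb'))
  have h2 := mul_mem (mul_mem ha' h1) (inv_mem ha')
  convert h2 using 1
  group

theorem le_gen_of_perfect {ι : Type*} {c : ι → Fin D.rank → kˣ} {A : Subgroup ↥(D.group k)}
    (e : ∀ g ∈ A, ∀ i, g * torG D k (c i) = torG D k (c i) * g) (hp : ⁅A, A⁆ = A)
    {d : Fin D.rank → kˣ}
    (hd : A ≤ Subgroup.closure {y | ∃ x ∈ A, y = x * torG D k d * x⁻¹}) :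
    A ≤ gen (XR D (xG D k)) {r | ∀ i, chi D (c i) r = 1} := by
  have h1 : A ≤ gen (XR D (xG D k)) {r | ∀ i, chi D (c i) r = 1} ⊔ HH D (xG D k) := by
    refine hd.trans ((Subgroup.closure_le _).2 ?_)
    rintro _ ⟨x, hx, rfl⟩
    exact conj_mem_of_comm (e x hx) (Subgroup.mem_sup_right (torOK_xG.mem stBG.toStN d))
  rw [← hp]
  exact (Subgroup.commutator_mono h1 h1).trans (commutator_le_gen _)

/-- The product of the reflections in `a` and `w a`. -/
noncomputable def rho (w : (H64.wdata D).W) (a : Rt D) : (H64.wdata D).W :=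
  reflW a * reflW (w.1 a)

section W
omit [Tab D] [Comm D]
variable {w : (H64.wdata D).W}

theorem reflW_negR (a : Rt D) : reflW (negR a) = reflW a :=
  Subtype.ext (Equiv.ext fun s => refl_negR_left a s)

theorem rho_apply (a s : Rt D) : (rho w a).1 s = refl a (refl (w.1 a) s) := rfl

theorem rho_conj {v : (H64.wdata D).W} (hv : ∀ r, v.1 (w.1 r) = w.1 (v.1 r)) (a s : Rt D) :
    v.1 ((rho w a).1 s) = (rho w (v.1 a)).1 (v.1 s) := by
  rw [rho_apply, rho_apply, ← hv, H64.refl_apply v.2, H64.refl_apply v.2]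

theorem rho_negR (a : Rt D) : rho w (negR a) = rho w a := by
  rw [rho, rho, (isLin_W w).apply_negR, reflW_negR, reflW_negR]

theorem rho_w (hw : ∀ r, w.1 (w.1 r) = negR r) (a : Rt D) : rho w (w.1 a) = rho w a := by
  have := conj_reflW (reflW a) (w.1 a)
  rw [reflW_apply, refl_eq_self_iff.2 (orth hw a), mul_inv_eq_iff_eq_mul] at this
  rw [rho, rho, hw, reflW_negR, this]

theorem rho_of_mem (hw : ∀ r, w.1 (w.1 r) = negR r) {a b : Rt D} (h : b ∈ Orb w a) :
    rho w b = rho w a := by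
  rcases h with (rfl | rfl) | rfl | rfl
  · rfl
  · exact rho_negR a
  · exact rho_w hw a
  · rw [rho_negR, rho_w hw]

theorem Orb_subset (hw : ∀ r, w.1 (w.1 r) = negR r) {a b : Rt D} (h : b ∈ Orb w a) :
    Orb w b ⊆ Orb w a := by
  have h1 := (isLin_W w).apply_negR
  rcases h with (rfl | rfl) | rfl | rfl <;> rintro _ ((rfl | rfl) | rfl | rfl) <;>
    simp [O84.Orb, h1, hw]

theorem Orb_symm (hw : ∀ r, w.1 (w.1 r) = negR r) {a b : Rt D} (h : b ∈ Orb w a) :
    a ∈ Orb w b := by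
  have h1 := (isLin_W w).apply_negR
  rcases h with (rfl | rfl) | rfl | rfl <;> simp [O84.Orb, h1, hw]

theorem map_mem_Orb {v : (H64.wdata D).W} (hv : ∀ r, v.1 (w.1 r) = w.1 (v.1 r)) {a b : Rt D}
    (h : b ∈ Orb w a) : v.1 b ∈ Orb w (v.1 a) := by
  have h1 := (isLin_W v).apply_negR
  rcases h with (rfl | rfl) | rfl | rfl <;> simp [O84.Orb, h1, hv]

theorem chi_rho {A : Type*} [CommGroup A] (hw : ∀ r, w.1 (w.1 r) = negR r) (c : Fin D.rank → A)
    (a s : Rt D) : chi D c ((rho w a).1 s) = chi D c s * (chi D c (w.1 a) ^ D.pairing (w.1 a) s)⁻¹ *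
      (chi D c a ^ D.pairing a s)⁻¹ := by
  have h : D.pairing a (refl (w.1 a) s) = D.pairing a s := by
    rw [← cop_rt, rt_refl, cop_sub, cop_smul, cop_rt, cop_rt, orth hw, mul_zero, sub_zero]
  rw [rho_apply, chi_refl, chi_refl, h]

end W

variable [CharP k 2] [IsAlgClosed k] {L : List ℕ}

theorem per_nu (a : Rt D) :
    Per (nn D (xG D k) a 1 * nn D (xG D k) ((wW D L).1 a) 1) (rho (wW D L) a).1 :=
  (per_nn a).mul (per_nn _)

variable (k) in
/-- The lift of `rho`. -/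
noncomputable def nu (hw : ∀ r, (wW D L).1 ((wW D L).1 r) = negR r) (a : Rt D) : ↥(Gam D k L) :=
  ⟨nn D (xG D k) a 1 * nn D (xG D k) ((wW D L).1 a) 1, (per_nu a).mem_Gam fun r => by
    have := rho_conj (w := wW D L) (v := wW D L) (fun _ => rfl) a r
    rw [rho_w hw] at this
    exact this.symm⟩

theorem nu_mem (hw : ∀ r, (wW D L).1 ((wW D L).1 r) = negR r) (a : Rt D) :
    nu k hw a ∈ KK k L a := by
  have key : ∀ b : Rt D, b ∈ Orb (wW D L) a → negR b ∈ Orb (wW D L) a →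
      nn D (xG D k) b 1 ∈ gen (XR D (xG D k)) (Orb (wW D L) a) := fun b h1 h2 => by
    rw [nn_eq]
    exact mul_mem (mul_mem (le_gen _ h1 (x_mem_XR D _ b _)) (le_gen _ h2 (x_mem_XR D _ (negR b) _)))
      (le_gen _ h1 (x_mem_XR D _ b _))
  exact mul_mem (key a (by simp [O84.Orb]) (by simp [O84.Orb]))
    (key _ (by simp [O84.Orb]) (by simp [O84.Orb]))

theorem map_KK (hw : ∀ r, (wW D L).1 ((wW D L).1 r) = negR r) {g : ↥(Gam D k L)}
    {v : (H64.wdata D).W} (h : stBG.rgd.Act g.1 v)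
    (hv : ∀ r, v.1 ((wW D L).1 r) = (wW D L).1 (v.1 r)) {a b : Rt D}
    (hb : v.1 a ∈ Orb (wW D L) b) :
    (KK k L a).map (MulAut.conj g).toMonoidHom = KK k L b := by
  refine le_antisymm ?_ fun y hy => ⟨g⁻¹ * y * g⁻¹⁻¹, ?_, by simp [mul_assoc]⟩
  · rintro _ ⟨y, hy, rfl⟩
    exact conj_gen h (fun r hr => Orb_subset hw hb (map_mem_Orb hv hr)) hy
  · refine conj_gen h.inv (fun r hr => ?_) hy
    have hv' : ∀ r, v⁻¹.1 ((wW D L).1 r) = (wW D L).1 (v⁻¹.1 r) := fun r => v.1.injective (by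
      rw [hv, H64.WData.apply_inv_apply, H64.WData.apply_inv_apply])
    have := map_mem_Orb hv' (Orb_subset hw (Orb_symm hw hb) hr)
    rwa [H64.WData.inv_apply_apply] at this

end H46.O84
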