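/- Tower O84: the torus `5⁴` of `E₈(2)` and its sixty subgroups `SL₂(4)`. -/
import Cfsg.Agent.H46.O84D
import Cfsg.Agent.H36.O84Ord
import Cfsg.Agent.H67.Jordan

set_option autoImplicit false

open Cfsg.Lie H63 H64 H65 Matrix H36.O84
open H67 (torG torOK_xG stBG torG_eq_one_iff eq_of_chi_eq)
open H12.O84 (dig wr wv_val K2)
open scoped commutatorElement

namespace H46.O84

attribute [local instance] H65.tabE8 H65.commE8
attribute [local irreducible] ch Ym Pm Cm Lw χ r dig wr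

theorem w_val (r : Rt chevE8) : ((wW chevE8 Lw).1 r : ℕ) = wr Lw r := wv_val Lw r

theorem hw (r : Rt chevE8) : (wW chevE8 Lw).1 ((wW chevE8 Lw).1 r) = negR r :=
  Fin.ext (by rw [w_val, w_val, negR_val]; exact ww_tab r r.2)

theorem hlen (r s : Rt chevE8) : len r = len s := by rw [len_E8, len_E8, len_one, len_one]

theorem hadj (r : Rt chevE8) : ∃ s : Rt chevE8, chevE8.pairing r s = 1 := by
  obtain ⟨v, i, rfl⟩ := (H64.wdata chevE8).exists_simple r
  obtain ⟨j, hj⟩ := adj_tab i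
  refine ⟨v.1 (negR (simpleR j)), ?_⟩
  rw [H64.wdata_p, H64.pairing_apply v.2, negR_val, pairing_negR_right, simpleR_val, pairing_simple,
    simpleR_val, hj, neg_neg]

theorem ch_w (r : Rt chevE8) : ch ((wW chevE8 Lw).1 r) = (2 : ZMod 5) • ch r :=
  funext fun j => by rw [w_val]; exact ch_w_tab r r.2 j

theorem ch_neg (r : Rt chevE8) : ch (negR r) = - ch r := by
  rw [negR_val]; exact funext (ch_neg_tab r r.2)

theorem ch_inj {r s : Rt chevE8} (h : ch r = ch s) : r = s :=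
  Fin.ext (by rw [← ch_inv r r.2, h, ch_inv s s.2])

theorem ch_ne (r : Rt chevE8) : ch r ≠ 0 := fun e => ch_ne_tab r r.2 (by rw [e]; rfl)

/-- The root of a point. -/
def rp (l : Fin 60) : Rt chevE8 := ⟨dig repT l, rp_lt l⟩

theorem ch_rp (l : Fin 60) : ch (rp l) = χ l := funext (ch_rp_tab l)

theorem mem_Orb {a s : Rt chevE8} {m : ZMod 5} (hm : m ≠ 0) (h : ch s = m • ch a) :
    s ∈ Orb (wW chevE8 Lw) a := by
  have : ∀ m : ZMod 5, m ≠ 0 → m = 1 ∨ m = -1 ∨ m = 2 ∨ m = -2 := by decide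
  rcases this m hm with rfl | rfl | rfl | rfl
  · exact .inl (.inl (ch_inj (by rw [h, one_smul])))
  · exact .inl (.inr (ch_inj (by rw [h, ch_neg, neg_one_smul])))
  · exact .inr (.inl (ch_inj (by rw [h, ch_w])))
  · exact .inr (.inr (ch_inj (by rw [h, ch_neg, ch_w, neg_smul])))

theorem exists_pt (s : Rt chevE8) : ∃ (l : Fin 60) (m : ZMod 5), m ≠ 0 ∧ ch s = m • ch (rp l) :=
  ⟨pt s, _, (pt_tab s s.2).1, by rw [ch_rp]; exact funext (pt_tab s s.2).2⟩

theorem exists_xi : ∃ ζ : K2ˣ, orderOf ζ = 5 ∧ ∀ y : K2ˣ, y ^ 5 = 1 → y ∈ Subgroup.zpowers ζ :=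
  exists_root_unit (by rw [Ne, CharP.cast_eq_zero_iff K2 2]; decide)

theorem exists_e : ∃ e : Multiplicative (ZMod 5) →* K2ˣ, Function.Injective e ∧
    ∀ y : K2ˣ, y ^ 5 = 1 → y ∈ e.range := by
  obtain ⟨ζ, h1, h2⟩ := exists_xi
  have h5 : ζ ^ 5 = 1 := h1 ▸ pow_orderOf_eq_one ζ
  refine ⟨(AddChar.zmodChar 5 h5).toMonoidHom, (injective_iff_map_eq_one _).2 fun a ha => ?_,
    fun y hy => ?_⟩
  · have h3 : ζ ^ (Multiplicative.toAdd a).val = 1 := ha
    rw [← orderOf_dvd_iff_pow_eq_one, h1] at h3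
    have h4 := Nat.eq_zero_of_dvd_of_lt h3 (ZMod.val_lt _)
    exact Multiplicative.toAdd.injective ((ZMod.val_eq_zero _).1 h4)
  · obtain ⟨n, rfl⟩ := h2 y hy
    exact zpow_mem (show ζ ∈ (AddChar.zmodChar 5 h5).toMonoidHom.range from
      ⟨Multiplicative.ofAdd 1, pow_one ζ⟩) n

/-- An embedding of the group of order five. -/
noncomputable def ee : Multiplicative (ZMod 5) →* K2ˣ := exists_e.choose

theorem ee_inj {a b : ZMod 5} (h : ee (.ofAdd a) = ee (.ofAdd b)) : a = b :=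
  Multiplicative.ofAdd.injective (exists_e.choose_spec.1 h)

/-- The torus element of a cocharacter modulo five. -/
noncomputable def tz (y : Fin chevE8.rank → ZMod 5) : Fin chevE8.rank → K2ˣ :=
  fun i => ee (.ofAdd (y i))

theorem chi_tz (y : Fin chevE8.rank → ZMod 5) (r : ℕ) :
    chi chevE8 (tz y) r = ee (.ofAdd (y ⬝ᵥ cw r)) := by
  rw [dotProduct, ofAdd_sum, map_prod]
  refine Finset.prod_congr rfl fun i _ => ?_
  rw [tz, ← map_zpow, ← ofAdd_zsmul, zsmul_eq_mul, mul_comm]; rfl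

/-- The torus element of a vector. -/
noncomputable def tv (x : V) : Fin chevE8.rank → K2ˣ := tz (x ᵥ* Ym)

theorem chi_tv (x : V) (r : Rt chevE8) : chi chevE8 (tv x) r = ee (.ofAdd (ch r ⬝ᵥ x)) := by
  have : Ym *ᵥ cw r = ch r := funext (ch_spec r r.2)
  rw [tv, chi_tz, ← dotProduct_mulVec, dotProduct_comm, this]

theorem tv_inj {x y : V} (h : tv x = tv y) : x = y := by
  have h1 : x ᵥ* Ym = y ᵥ* Ym := funext fun i => ee_inj (congrFun h i)
  have h2 : Ym * Pm = 1 := Matrix.ext cert_two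
  rw [← vecMul_one x, ← h2, ← vecMul_vecMul, h1, vecMul_vecMul, h2, vecMul_one]

theorem sep {x y : V} (h : ∀ r : Rt chevE8, ch r ⬝ᵥ x = ch r ⬝ᵥ y) : x = y :=
  tv_inj (eq_of_chi_eq (kerE8.cker_eq_bot _) fun r => by rw [chi_tv, chi_tv, h])

theorem tv_mem (x : V) : torG chevE8 K2 (tv x) ∈ Gam chevE8 K2 Lw :=
  tor_mem_Gam_iff.2 fun r => by
    rw [chi_tv, chi_tv, ch_w, smul_dotProduct, ← map_pow, ← ofAdd_nsmul, two_smul, two_smul]

/-- The torus. -/
noncomputable def tau : Multiplicative V →* ↥(Gam chevE8 K2 Lw) :=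
  MonoidHom.mk' (fun x => ⟨torG chevE8 K2 (tv x.toAdd), tv_mem _⟩) fun a b => Subtype.ext (by
    change torG chevE8 K2 _ = torG chevE8 K2 _ * torG chevE8 K2 _
    rw [← map_mul]
    congr 1
    funext i
    change ee _ = ee _ * ee _
    rw [← map_mul, ← ofAdd_add, toAdd_mul, add_vecMul]; rfl)

theorem tau_val (x : V) : (tau (.ofAdd x)).1 = torG chevE8 K2 (tv x) := rfl

theorem torG_inj : Function.Injective (torG chevE8 K2) :=
  (injective_iff_map_eq_one _).2 fun c hc => by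
    rwa [torG_eq_one_iff, kerE8.cker_eq_bot, Subgroup.mem_bot] at hc

theorem tau_inj : Function.Injective tau := fun a b h =>
  Multiplicative.toAdd.injective (tv_inj (torG_inj (congrArg Subtype.val h)))

theorem exists_tv {c : Fin chevE8.rank → K2ˣ} (h : torG chevE8 K2 c ∈ Gam chevE8 K2 Lw) :
    ∃ x, tv x = c := by
  rw [tor_mem_Gam_iff] at h
  have h5 : c ^ 5 = 1 := eq_of_chi_eq (kerE8.cker_eq_bot _) fun r => by
    have h1 := h ((wW chevE8 Lw).1 r)
    rw [hw, h, chi_negR, ← pow_mul] at h1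
    rw [chi_eq, pow_ev, chi_eq, one_ev, ← chi_eq, pow_succ, ← h1, inv_mul_cancel]
  choose y hy using fun i => exists_e.choose_spec.2 (c i) (congrFun h5 i)
  obtain rfl : tz (fun i => (y i).toAdd) = c := funext hy
  generalize (fun i => (y i).toAdd) = z at h
  have h1 : z ᵥ* Bm = 0 := funext fun j => by
    have h2 := h (simpleR j)
    rw [chi_tz, chi_tz, ← map_pow, ← ofAdd_nsmul, w_val] at h2
    have h3 : z ᵥ* Bm = fun j : Fin chevE8.rank =>
        z ⬝ᵥ cw (wr Lw (chevE8.simple j)) - 2 • z ⬝ᵥ cw (chevE8.simple j) := by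
      funext j
      simp only [vecMul, dotProduct, Bm, of_apply, mul_sub, Finset.sum_sub_distrib, two_smul,
        two_mul, mul_add, Finset.sum_add_distrib, Pi.add_apply, add_mul]
    have h4 := ee_inj h2
    rw [simpleR_val] at h4
    rw [h3, Pi.zero_apply, sub_eq_zero, h4, smul_dotProduct]
  have h2 : Bm * Cm + Pm * Ym = 1 := Matrix.ext fun i j => (cert_one i j).trans (by
    simp only [one_apply, Fin.ext_iff])
  refine ⟨z ᵥ* Pm, congrArg tz ?_⟩
  conv_rhs => rw [← vecMul_one z, ← h2, vecMul_add, ← vecMul_vecMul, h1, zero_vecMul, zero_add]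
  rw [vecMul_vecMul]

theorem act_W {g : ↥(Gam chevE8 K2 Lw)} {M : M4} (h : Act tau g M) :
    ∃ v : (H64.wdata chevE8).W, g.1 ∈ (stBG (D := chevE8) (k := K2)).rgd.N ∧ stBG.rgd.Act g.1 v ∧
      ∀ x (s : Rt chevE8), ch (v.1 s) ⬝ᵥ (M *ᵥ x) = ch s ⬝ᵥ x := by
  obtain ⟨v, h1, h2, h3⟩ := exists_act (g := g.1) (c := tv) (c' := fun x => tv (M *ᵥ x))
    (fun s => by
      by_contra h0
      push Not at h0
      refine ch_ne s (dotProduct_eq _ _ fun x => ee_inj ?_)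
      rw [← chi_tv, h0, zero_dotProduct, ofAdd_zero, map_one])
    fun x => mul_inv_eq_iff_eq_mul.1 (congrArg Subtype.val (h x))
  exact ⟨v, h1, h2, fun x s => ee_inj (by rw [← chi_tv, ← chi_tv, h3])⟩

theorem cT (g : ↥(Gam chevE8 K2 Lw)) (h : Act tau g 1) : g ∈ tau.range := by
  obtain ⟨v, h1, h2, h3⟩ := act_W h
  obtain rfl : v = 1 := Subtype.ext (Equiv.ext fun s => ch_inj (dotProduct_eq _ _ fun x => by
    rw [← one_mulVec x, h3, one_mulVec]; rfl))
  obtain ⟨c, hc⟩ := torOK_xG.exists stBG.toStN (stBG.rgd.mem_H_of_act_one h1 h2)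
  obtain ⟨x, rfl⟩ := exists_tv (hc ▸ g.2)
  exact ⟨.ofAdd x, Subtype.ext hc⟩

theorem ch_rho (l : Fin 60) (x : V) (s : Rt chevE8) :
    ch ((rho (wW chevE8 Lw) (rp l)).1 s) ⬝ᵥ (r l *ᵥ x) = ch s ⬝ᵥ x := by
  refine ee_inj ?_
  rw [← chi_tv, ← chi_tv]
  refine chi_lin _ (fun i => ?_) s
  have hp : ∀ a : Rt chevE8, chevE8.pairing a (simpleR i : Rt chevE8) = chevE8.cartan i a :=
    fun a => by
      have := pairing_mul_len_comm a (simpleR i)
      rw [hlen a (simpleR i), simpleR_val, pairing_simple] at this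
      exact mul_left_cancel₀ (len_pos _).ne' this
  rw [chi_rho hw, chi_tv, chi_tv, chi_tv, chi_tv, hp, hp, ← map_zpow ee, ← map_zpow ee,
    ← map_inv ee, ← map_inv ee, ← map_mul ee, ← map_mul ee, ← ofAdd_zsmul, ← ofAdd_zsmul,
    ← ofAdd_neg, ← ofAdd_neg, ← ofAdd_add, ← ofAdd_add, ch_w, w_val]
  refine congrArg (fun z => ee (.ofAdd z)) ?_
  have h1 : (ch (chevE8.simple i) - (2 * cw (wr Lw (rp l)) i + cw (rp l) i) • ch (rp l)) ᵥ* r l =
      ch (chevE8.simple i) := funext (r_tab l i)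
  rw [simpleR_val]
  conv_rhs => rw [← h1, ← dotProduct_mulVec]
  rw [sub_dotProduct, smul_dotProduct, smul_dotProduct]
  simp only [zsmul_eq_mul, smul_eq_mul, cw]
  ring

theorem nu_act (l : Fin 60) : Act tau (nu K2 hw (rp l)) (r l) := fun x =>
  Subtype.ext ((per_nu (rp l)).conj_tor (c := tv x) (c' := tv (r l *ᵥ x)) fun s => by
    rw [chi_tv, chi_tv, ch_rho])

theorem pres (g : ↥(Gam chevE8 K2 Lw)) (M : M4) (h : Act tau g M) (l : Fin 60) :
    ∃ l', M * r l = r l' * M ∧ cS g (KK K2 Lw (rp l)) = KK K2 Lw (rp l') := by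
  obtain ⟨v, -, h2, h3⟩ := act_W h
  have hM : Function.Surjective M.mulVec := Finite.surjective_of_injective fun x y e => sep fun s => by
    rw [← h3, e, h3]
  have hv : ∀ s, v.1 ((wW chevE8 Lw).1 s) = (wW chevE8 Lw).1 (v.1 s) := fun s =>
    ch_inj (dotProduct_eq _ _ fun y => by
      obtain ⟨x, rfl⟩ := hM y
      rw [h3, ch_w, ch_w, smul_dotProduct, smul_dotProduct, h3])
  obtain ⟨l', m, hm, e⟩ := exists_pt (v.1 (rp l))
  have hb := mem_Orb hm e
  refine ⟨l', Matrix.ext_iff_mulVec.2 fun x => sep fun s => ?_, map_KK hw h2 hv hb⟩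
  obtain ⟨s, rfl⟩ := (rho (wW chevE8 Lw) (rp l')).1.surjective s
  obtain ⟨s, rfl⟩ := v.1.surjective s
  rw [← mulVec_mulVec, ← mulVec_mulVec, ch_rho, h3, ← rho_of_mem hw hb, ← rho_conj hv, h3, ch_rho]

theorem exists_smul {f g : V} (hf : f ≠ 0) (h : ∀ a : V, f ⬝ᵥ a = 0 → g ⬝ᵥ a = 0) :
    ∃ m : ZMod 5, g = m • f := by
  haveI : Fact (Nat.Prime 5) := ⟨by norm_num⟩
  obtain ⟨i, hi⟩ := Function.ne_iff.1 hf
  have hi' : f i ≠ 0 := hi
  refine ⟨g i / f i, funext fun j => ?_⟩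
  have := h (Pi.single j (f i) - Pi.single i (f j)) (by simp [mul_comm])
  rw [dotProduct_sub, dotProduct_single, dotProduct_single] at this
  rw [Pi.smul_apply, smul_eq_mul]
  field_simp
  linear_combination this

theorem u4 (f : V) (A : Subgroup ↥(Gam chevE8 K2 Lw)) (c : V) (hf : f ≠ 0)
    (h1 : ∀ x ∈ A, ∀ a : V, f ⬝ᵥ a = 0 → x * tau (.ofAdd a) = tau (.ofAdd a) * x)
    (h2 : ⁅A, A⁆ = A)
    (h3 : A ≤ Subgroup.closure {y | ∃ x ∈ A, y = x * tau (.ofAdd c) * x⁻¹}) (h4 : A ≠ ⊥) :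
    ∃ l, (∀ a : V, f ⬝ᵥ a = 0 ↔ χ l ⬝ᵥ a = 0) ∧ A ≤ KK K2 Lw (rp l) := by
  haveI : Fact (Nat.Prime 5) := ⟨by norm_num⟩
  have key := le_gen_of_perfect (c := fun a : {a : V // f ⬝ᵥ a = 0} => tv a.1)
    (A := A.map (Gam chevE8 K2 Lw).subtype) (d := tv c)
    (by rintro _ ⟨x, hx, rfl⟩ a; exact congrArg Subtype.val (h1 x hx a.1 a.2))
    (by rw [← Subgroup.map_commutator, h2]) (by
      refine (Subgroup.map_mono h3).trans ?_
      rw [MonoidHom.map_closure]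
      refine Subgroup.closure_mono ?_
      rintro _ ⟨_, ⟨x, hx, rfl⟩, rfl⟩
      exact ⟨x.1, ⟨x, hx, rfl⟩, rfl⟩)
  have hS : ∀ s : Rt chevE8, (∀ a : {a : V // f ⬝ᵥ a = 0}, chi chevE8 (tv a.1) s = 1) →
      ∃ m : ZMod 5, m ≠ 0 ∧ ch s = m • f := fun s hs => by
    obtain ⟨m, hm⟩ := exists_smul (g := ch s) hf fun a ha => ee_inj (by
      rw [← chi_tv, hs ⟨a, ha⟩, ofAdd_zero, map_one])
    exact ⟨m, fun e => ch_ne s (by rw [hm, e, zero_smul]), hm⟩
  rcases Set.eq_empty_or_nonempty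
    {s : Rt chevE8 | ∀ a : {a : V // f ⬝ᵥ a = 0}, chi chevE8 (tv a.1) s = 1} with e | ⟨b, hb⟩
  · rw [e, gen_empty, le_bot_iff, Subgroup.map_eq_bot_iff_of_injective _ Subtype.val_injective] at key
    exact absurd key h4
  obtain ⟨m, hm, e⟩ := hS b hb
  obtain ⟨l, n, hn, e'⟩ := exists_pt b
  have e2 : f = (m⁻¹ * n) • ch (rp l) := by
    rw [mul_smul, ← e', e, smul_smul, inv_mul_cancel₀ hm, one_smul]
  have hmn : m⁻¹ * n ≠ 0 := mul_ne_zero (inv_ne_zero hm) hn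
  refine ⟨l, fun a => ?_, fun x hx => gen_mono _ (fun s hs => ?_) (key ⟨x, hx, rfl⟩)⟩
  · rw [e2, smul_dotProduct, smul_eq_mul, mul_eq_zero, ch_rp, or_iff_right hmn]
  · obtain ⟨p, hp, e3⟩ := hS s hs
    exact mem_Orb (mul_ne_zero hp hmn) (by rw [e3, mul_smul, ← e2])

/-- The system of the torus. -/
noncomputable def sys : Sys ↥(Gam chevE8 K2 Lw) where
  τ := tau
  inj := tau_inj
  K l := KK K2 Lw (rp l)
  ν l := nu K2 hw (rp l)
  cT := cT
  pres := pres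
  cardK l := (card_KK hw hlen hadj (rp l)).2
  νK l := nu_mem hw (rp l)
  νA := nu_act
  u4 f A c hf h1 h2 _ h3 h4 := u4 f A c hf h1 h2 h3 h4
  n56 := n56_of_equiv (H12.O84.nonempty_gam Lw)

theorem nonempty_sys : Nonempty (Sys ↥(Gam chevE8 K2 Lw)) := ⟨sys⟩

end H46.O84
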