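import Cfsg.Agent.H30.SQSpec

/-! Tower SQ (S4132), job N4: the normaliser of `T` fixes `z`. -/

set_option autoImplicit false

open Cfsg Subgroup H30.SQ

namespace H46.SQN4

universe u

variable {G : Type*} [Group G]

theorem card_le_of_cj [Finite G] {H K : Subgroup G} (g : G) (h : ∀ s ∈ H, g * s * g⁻¹ ∈ K) :
    Nat.card H ≤ Nat.card K := by
  refine Nat.card_le_card_of_injective (fun s : H => (⟨g * s * g⁻¹, h s s.2⟩ : K)) ?_
  intro a b hab
  have := congrArg Subtype.val hab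
  simp only [mul_left_inj, mul_right_inj] at this
  exact Subtype.ext this

theorem surj_of_cj [Finite G] {H K : Subgroup G} (g : G) (h : ∀ s ∈ H, g * s * g⁻¹ ∈ K)
    (hc : Nat.card K ≤ Nat.card H) : ∀ y ∈ K, g⁻¹ * y * g ∈ H := by
  intro y hy
  have hinj : Function.Injective (fun s : H => (⟨g * s * g⁻¹, h s s.2⟩ : K)) := by
    intro a b hab
    have := congrArg Subtype.val hab
    simp only [mul_left_inj, mul_right_inj] at this
    exact Subtype.ext this
  have hb := hinj.bijective_of_nat_card_le hc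
  obtain ⟨s, hs⟩ := hb.2 ⟨y, hy⟩
  have e : g * s * g⁻¹ = y := congrArg Subtype.val hs
  rw [← e]
  simp [mul_assoc]

theorem commute_cj {a b : G} (g : G) (h : Commute a b) :
    Commute (g * a * g⁻¹) (g * b * g⁻¹) := by
  show _ = _
  have e := h.eq
  calc g * a * g⁻¹ * (g * b * g⁻¹) = g * (a * b) * g⁻¹ := by group
    _ = g * (b * a) * g⁻¹ := by rw [e]
    _ = _ := by group

theorem commute_cj' {a b : G} (g : G) (h : Commute (g⁻¹ * a * g) b) :
    Commute a (g * b * g⁻¹) := by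
  have := commute_cj g h
  rwa [show g * (g⁻¹ * a * g) * g⁻¹ = a by group] at this

/-- an element carrying `T` into itself preserves `Br` -/
theorem br_cj [Finite G] {T : Subgroup G} {g w : G} (hg : ∀ s ∈ T, g * s * g⁻¹ ∈ T)
    (hw : Br T w) : Br T (g * w * g⁻¹) := by
  have hg' := surj_of_cj g hg le_rfl
  refine ⟨hg w hw.1, fun a ha b hb => ?_⟩
  rcases hw.2 _ (hg' a ha) _ (hg' b hb) with h | h | h
  · exact Or.inl (commute_cj' g h)
  · exact Or.inr (Or.inl (commute_cj' g h))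
  · refine Or.inr (Or.inr (commute_cj' g ?_))
    rwa [show g⁻¹ * (a * b) * g = g⁻¹ * a * g * (g⁻¹ * b * g) by group]

theorem cen_cj [Finite G] {T : Subgroup G} {g w : G} (hg : ∀ s ∈ T, g * s * g⁻¹ ∈ T)
    (hw : Cen T w) : Cen T (g * w * g⁻¹) :=
  ⟨hg w hw.1, fun s hs => commute_cj' g (hw.2 _ (surj_of_cj g hg le_rfl s hs))⟩

/-- Burnside's fusion argument -/
theorem burn {T : Subgroup G} {n : ℕ} (H : Hy T n) {y z : G} (hy : Cen T y) (hz : Cen T z)
    (h : IsConj y z) : ∃ g : G, g * y * g⁻¹ = z ∧ ∀ s ∈ T, g * s * g⁻¹ ∈ T := by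
  obtain ⟨g, e, hg⟩ := (H.cen z hz).2 y hy.1 h
  exact ⟨g, e, fun s hs => hg s hs (hy.2 s hs)⟩

theorem zpow_invol {z : G} (h : z * z = 1) (j : ℤ) : z ^ j = 1 ∨ z ^ j = z := by
  have h2 : z ^ (2 : ℤ) = 1 := by rw [zpow_two, h]
  rcases Int.even_or_odd' j with ⟨i, e | e⟩
  · left; rw [e, zpow_mul, h2, one_zpow]
  · right; rw [e, zpow_add, zpow_mul, h2, one_zpow, one_mul, zpow_one]

/-- a conjugate of `w` under the normaliser moving `z` centralises `w` and `v` -/
theorem step1 {T U₁ : Subgroup G} {n : ℕ} {w v c z k : G} (S : ST T U₁ n w v c z)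
    (K : KT T U₁ n w v c z) (hk : ∀ s ∈ T, k * s * k⁻¹ ∈ T) (hk' : ∀ s ∈ T, k⁻¹ * s * k ∈ T)
    (hne : k * z * k⁻¹ ≠ z) : k * w * k⁻¹ ∈ U0 T w v := by
  set w' := k * w * k⁻¹ with hw'
  set c' := k * c * k⁻¹ with hc'
  have hwT : w' ∈ T := hk w S.wT
  have jw' : ∀ s ∈ T, s * w' * s⁻¹ = w' ∨ s * w' * s⁻¹ = w' * c' := by
    intro s hs
    rcases K.jw _ (hk' s hs) with h | h
    · left
      calc s * w' * s⁻¹ = k * (k⁻¹ * s * k * w * (k⁻¹ * s * k)⁻¹) * k⁻¹ := by rw [hw']; group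
        _ = w' := by rw [h]
    · right
      calc s * w' * s⁻¹ = k * (k⁻¹ * s * k * w * (k⁻¹ * s * k)⁻¹) * k⁻¹ := by rw [hw']; group
        _ = w' * c' := by rw [h, hw', hc']; group
  have hz' : k * z * k⁻¹ = c' ^ (n / 2) := by rw [hc', cj_pow, ← S.zc]
  have hwc' : Commute w' c' := commute_cj k S.wc
  have h1 : Commute w' w := by
    by_contra hn
    apply hne
    have e1 : w' * w * w'⁻¹ = w * c := by
      rcases K.jw w' hwT with h | h
      · exact absurd (mul_inv_eq_iff_eq_mul.mp h) hn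
      · exact h
    have e2 : w * w' * w⁻¹ = w' * c' := by
      rcases jw' w S.wT with h | h
      · exact absurd (mul_inv_eq_iff_eq_mul.mp h).symm hn
      · exact h
    rw [S.wc.eq] at e1
    rw [hwc'.eq] at e2
    have e3 : c = w' * w * w'⁻¹ * w⁻¹ := by rw [e1]; group
    have e4 : c' = w * w' * w⁻¹ * w'⁻¹ := by rw [e2]; group
    have e5 : c' = c⁻¹ := by
      have e6 : (w' * w * w'⁻¹ * w⁻¹)⁻¹ = w * w' * w⁻¹ * w'⁻¹ := by group
      rw [e4, ← e6, ← e3]
    rw [hz', e5, inv_pow, ← S.zc]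
    exact inv_eq_of_mul_eq_one_right K.z2
  have h2 : Commute w' v := by
    by_contra hn
    apply hne
    have e2 : v * w' * v⁻¹ = w' * c' := by
      rcases jw' v S.vT with h | h
      · exact absurd (mul_inv_eq_iff_eq_mul.mp h).symm hn
      · exact h
    obtain ⟨j, hj⟩ := K.jv _ (T.inv_mem hwT)
    have e3 : c' = c ^ j := by
      calc c' = w'⁻¹ * (w' * c') := by group
        _ = w'⁻¹ * v * w'⁻¹⁻¹ * v⁻¹ := by rw [← e2]; group
        _ = c ^ j := by rw [hj]; group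
    have e4 : k * z * k⁻¹ = z ^ j := by
      rw [hz', e3, S.zc, ← zpow_natCast, ← zpow_mul, ← zpow_natCast, ← zpow_mul, mul_comm]
    rcases zpow_invol K.z2 j with h | h
    · exfalso
      rw [h] at e4
      apply K.z1
      calc z = k⁻¹ * (k * z * k⁻¹) * k := by group
        _ = 1 := by rw [e4]; group
    · rw [e4, h]
  refine ⟨hwT, mem_centralizer_iff.mpr ?_⟩
  rintro x (rfl | rfl)
  · exact h1.symm.eq
  · exact h2.symm.eq

/-- an element of breadth at most one whose top power lies outside `U₁` -/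
theorem step2 {T U₁ : Subgroup G} {n : ℕ} {w v c z y : G} (H : Hy T n) (S : ST T U₁ n w v c z)
    (K : KT T U₁ n w v c z) (hy : Br T y) (hn : y ^ n ∉ U₁) :
    ∃ u' : G, Cen T u' ∧ y ^ n = u' ^ n * w ^ n := by
  obtain ⟨m, hm⟩ := H.ev
  have hn2 : n = 2 * (n / 2) := by rw [hm, pow_succ]; omega
  have hww : (w ^ n) ^ 2 = 1 := by rw [← pow_mul, mul_comm]; exact H.ex w S.wT
  obtain ⟨u', hu', i, e | e⟩ := S.gen y hy.1
  · have hc : Commute u' (w ^ i) := (S.cw u' hu').pow_right i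
    have e1 : y ^ n = u' ^ n * (w ^ n) ^ i := by
      rw [e, hc.mul_pow, ← pow_mul, ← pow_mul, mul_comm i n]
    rcases Nat.even_or_odd' i with ⟨j, hj | hj⟩
    · exfalso
      apply hn
      rw [e1, hj, pow_mul, hww, one_pow, mul_one]
      exact U₁.pow_mem hu' n
    have hci : c ^ i ≠ 1 := by
      intro h
      have := orderOf_dvd_of_pow_eq_one h
      rw [S.oc, hn2, hj] at this
      have := (Dvd.intro _ rfl : 2 ∣ 2 * (n / 2)).trans this
      omega
    have hvi : v * w ^ i * v⁻¹ = w ^ i * c ^ i := by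
      have := K.vi i
      simpa only [zpow_natCast] using this
    have hvy : v * y * v⁻¹ = y * c ^ i := by
      calc v * y * v⁻¹ = (v * u') * w ^ i * v⁻¹ := by rw [e]; group
        _ = u' * (v * w ^ i * v⁻¹) := by rw [← (S.cv u' hu').eq]; group
        _ = y * c ^ i := by rw [hvi, e]; group
    have hcu : ∀ u'' ∈ U₁, Commute u'' u' := by
      intro u'' hu''
      have hcw : Commute u'' (w ^ i) := (S.cw u'' hu'').pow_right i
      rcases hy.2 u'' (S.le hu'') v S.vT with h | h | h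
      · have : Commute u'' (y * (w ^ i)⁻¹) := h.mul_right hcw.inv_right
        rwa [e, mul_inv_cancel_right] at this
      · exfalso
        apply hci
        rw [h.eq, mul_inv_cancel_right] at hvy
        exact (left_eq_mul.mp hvy)
      · exfalso
        apply hci
        have hcc : Commute u'' (c ^ i) := (K.uc u'' hu'').pow_right i
        have hwc : Commute (w ^ i) (c ^ i) := S.wc.pow_pow i i
        have e2 : u'' * (y * c ^ i) * u''⁻¹ = y := by
          rw [← hvy]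
          calc u'' * (v * y * v⁻¹) * u''⁻¹ = (u'' * v * y) * (u'' * v)⁻¹ := by group
            _ = y := by rw [h.eq]; group
        have e3 : u'' * u' * u''⁻¹ * (c ^ i * w ^ i) = u' * w ^ i := by
          rw [← e, ← e2, e, ← hwc.eq]
          calc u'' * u' * u''⁻¹ * (w ^ i * c ^ i)
              = u'' * u' * (u''⁻¹ * (w ^ i * c ^ i) * u'') * u''⁻¹ := by group
            _ = u'' * u' * (w ^ i * c ^ i) * u''⁻¹ := by
              rw [mul_assoc u''⁻¹, ← (hcw.mul_right hcc).eq]; group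
            _ = _ := by group
        have e4 : c ^ i = (u'' * u' * u''⁻¹)⁻¹ * u' := by
          have : u'' * u' * u''⁻¹ * c ^ i = u' := by
            rw [← mul_assoc] at e3
            exact mul_right_cancel e3
          rw [eq_inv_mul_iff_mul_eq, this]
        have e5 : c ^ (i : ℤ) ∈ U₁ := by
          rw [zpow_natCast, e4]
          exact U₁.mul_mem (U₁.inv_mem (U₁.mul_mem (U₁.mul_mem hu'' hu') (U₁.inv_mem hu''))) hu'
        have := K.cU _ e5
        rwa [zpow_natCast] at this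
    refine ⟨u', ⟨S.le hu', fun s hs => ?_⟩, ?_⟩
    · obtain ⟨a, ha, l, e' | e'⟩ := S.gen s hs
      · rw [e']
        exact (hcu a ha).mul_left ((S.cw u' hu').pow_right l).symm
      · rw [e']
        exact ((hcu a ha).mul_left ((S.cw u' hu').pow_right l).symm).mul_left (S.cv u' hu').symm
    · rw [e1, hj, pow_succ, pow_mul, hww, one_pow, one_mul]
  · exfalso
    apply hn
    have hc : Commute u' (w ^ i * v) := ((S.cw u' hu').pow_right i).mul_right (S.cv u' hu')
    have e1 : (w ^ i * v) ^ n = (w ^ n * z) ^ i := by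
      rw [← K.zn, ← pow_mul, mul_comm (n / 2) i, pow_mul, ← K.zi, ← pow_mul, ← hn2]
    rw [e, mul_assoc, hc.mul_pow, e1]
    exact U₁.mul_mem (U₁.pow_mem hu' n) (U₁.pow_mem S.az i)

theorem jobN4 : JobN4.{u} := by
  intro G _ _ T U₁ n w v c z H S K k hkN
  have hk : ∀ s ∈ T, k * s * k⁻¹ ∈ T := fun s hs => (hkN s).mp hs
  have hk' := surj_of_cj k hk le_rfl
  by_contra hne
  obtain ⟨m, hm⟩ := H.ev
  have hn2 : n = 2 * (n / 2) := by rw [hm, pow_succ]; omega
  have h0 := step1 S K hk hk' hne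
  obtain ⟨u, hu, hun⟩ : ∃ u ∈ U₁, u ^ n = k * w ^ n * k⁻¹ := by
    rcases (K.u0 _).mp h0 with h | h
    · exact ⟨_, h, cj_pow k w n⟩
    · refine ⟨_, h, ?_⟩
      have hzn : z ^ n = 1 := by rw [hn2, pow_mul, sq, K.z2, one_pow]
      rw [(K.zc.2 _ h0.1).mul_pow, hzn, mul_one, cj_pow]
  have huc : Cen T (u ^ n) := hun ▸ cen_cj hk K.wn
  have hyT : u * w ∈ T := T.mul_mem (S.le hu) S.wT
  have hyn : (u * w) ^ n = u ^ n * w ^ n := (S.cw u hu).mul_pow n
  have hsc : Cen T (u ^ n * w ^ n) :=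
    ⟨T.mul_mem huc.1 K.wn.1, fun s hs => (huc.2 s hs).mul_right (K.wn.2 s hs)⟩
  have hsU : u ^ n * w ^ n ∉ U₁ := fun h =>
    K.wU ((U₁.mul_mem_cancel_left (U₁.pow_mem hu n)).mp h)
  obtain ⟨g, hg, -⟩ := H.br _ hyT
  have hconj : IsConj ((g * (u * w) * g⁻¹) ^ n) (u ^ n * w ^ n) := by
    rw [cj_pow, hyn]
    exact (isConj_iff.mpr ⟨g, rfl⟩).symm
  obtain ⟨h, e, hh⟩ := burn H (H.top_cen hg) hsc hconj
  rw [← cj_pow] at e
  obtain ⟨u', hu', e'⟩ := step2 H S K (br_cj hh hg) (e ▸ hsU)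
  rw [e] at e'
  have e2 : u ^ n = u' ^ n := mul_right_cancel e'
  have hk2 : ∀ s ∈ T, k⁻¹ * s * k⁻¹⁻¹ ∈ T := by simpa only [inv_inv] using hk'
  have hc := cen_cj hk2 hu'
  have h3 : k⁻¹ * u' * k⁻¹⁻¹ ∈ U0 T w v := by
    refine ⟨hc.1, mem_centralizer_iff.mpr ?_⟩
    rintro x (rfl | rfl)
    · exact (hc.2 _ S.wT).eq
    · exact (hc.2 _ S.vT).eq
  apply K.wU
  have e3 : w ^ n = (k⁻¹ * u' * k⁻¹⁻¹) ^ n := by rw [cj_pow, ← e2, hun]; group
  have e4 : ∀ x : G, x ^ n = (x * x) ^ (n / 2) := fun x => by rw [← sq, ← pow_mul, ← hn2]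
  rw [e3, e4]
  exact U₁.pow_mem (K.sq _ h3) _

end H46.SQN4
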