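import Cfsg.Agent.H46.SQN4

/-! Tower SQ (S4132), job SE: the set-up of part 2. -/

set_option autoImplicit false

open Cfsg Subgroup H30.SQ H46.SQN4

namespace H46.SQSE

universe u

variable {G : Type*} [Group G]

theorem ac {T : Subgroup G} {n : ℕ} (H : Hy T n) : ∀ a ∈ AA T n, Cen T a ∧ a * a = 1 := by
  intro a ha
  induction ha using closure_induction with
  | mem x hx =>
    obtain ⟨w, hw, rfl⟩ := hx
    exact ⟨H.top_cen hw, by rw [← pow_add, ← two_mul]; exact H.ex w hw.1⟩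
  | one => exact ⟨⟨T.one_mem, fun s _ => Commute.one_right s⟩, one_mul 1⟩
  | mul x y _ _ hx hy =>
    refine ⟨⟨T.mul_mem hx.1.1 hy.1.1, fun s hs => (hx.1.2 s hs).mul_right (hy.1.2 s hs)⟩, ?_⟩
    calc x * y * (x * y) = x * (y * x) * y := by group
      _ = x * (x * y) * y := by rw [(hx.1.2 y hy.1.1).eq]
      _ = (x * x) * (y * y) := by group
      _ = 1 := by rw [hx.2, hy.2, one_mul]
  | inv x _ hx =>
    refine ⟨⟨T.inv_mem hx.1.1, fun s hs => (hx.1.2 s hs).inv_right⟩, ?_⟩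
    rw [← mul_inv_rev, hx.2, inv_one]

theorem a_cj [Finite G] {T : Subgroup G} {n : ℕ} {g : G} (hg : ∀ s ∈ T, g * s * g⁻¹ ∈ T) :
    ∀ a ∈ AA T n, g * a * g⁻¹ ∈ AA T n := by
  intro a ha
  induction ha using closure_induction with
  | mem x hx =>
    obtain ⟨w, hw, rfl⟩ := hx
    exact subset_closure ⟨_, br_cj hg hw, (cj_pow g w n).symm⟩
  | one => simp
  | mul x y _ _ hx hy =>
    have := (AA T n).mul_mem hx hy
    rwa [show g * x * g⁻¹ * (g * y * g⁻¹) = g * (x * y) * g⁻¹ by group] at this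
  | inv x _ hx =>
    have := (AA T n).inv_mem hx
    rwa [show (g * x * g⁻¹)⁻¹ = g * x⁻¹ * g⁻¹ by group] at this

theorem az [Finite G] {T : Subgroup G} {n : ℕ} (H : Hy T n) :
    ∀ a ∈ AA T n, ∀ y : G, Cen T y → IsConj a y → y ∈ AA T n := by
  intro a ha y hy h
  obtain ⟨g, e, hg⟩ := burn H (ac H a ha).1 hy h
  exact e ▸ a_cj hg a ha

theorem a_ne_bot {T : Subgroup G} {n : ℕ} (H : Hy T n) : AA T n ≠ ⊥ := by
  obtain ⟨x, hx, hn⟩ := H.top
  obtain ⟨g, hg, -⟩ := H.br x hx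
  intro e
  have h1 : (g * x * g⁻¹) ^ n ∈ AA T n := subset_closure ⟨_, hg, rfl⟩
  rw [e, mem_bot, cj_pow] at h1
  apply hn
  calc x ^ n = g⁻¹ * (g * x ^ n * g⁻¹) * g := by group
    _ = 1 := by rw [h1]; group

/-- the conjugates of elements of `A` in `T` outside `A` -/
def J (T A : Subgroup G) : Set G := {t | t ∈ T ∧ (∃ a ∈ A, IsConj a t) ∧ t ∉ A}

theorem j_ne {T : Subgroup G} {n : ℕ} (H : Hy T n) : (J T (AA T n)).Nonempty := by
  have hc : IsMulCommutative (AA T n) :=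
    ⟨⟨fun a b => Subtype.ext ((ac H b b.2).1.2 a (ac H a a.2).1.1).eq⟩⟩
  have h := H.nsc _ (a_ne_bot H) hc
  by_contra hn
  refine h ⟨fun a ha => (ac H a ha).1.1, fun x hx g hg => ?_⟩
  by_contra h'
  exact hn ⟨_, hg, ⟨x, hx, isConj_iff.mpr ⟨g, rfl⟩⟩, h'⟩

/-- `C_T(t)` -/
abbrev CT (T : Subgroup G) (t : G) : Subgroup G := T ⊓ centralizer ({t} : Set G)

theorem mem_CT {T : Subgroup G} {t s : G} : s ∈ CT T t ↔ s ∈ T ∧ Commute s t := by
  rw [mem_inf, mem_centralizer_singleton_iff]; rfl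

theorem ex_sylow_over [Finite G] {P N : Subgroup G} (hP : IsPGroup 2 P) (hPN : P ≤ N) :
    ∃ S : Subgroup G, P ≤ S ∧ S ≤ N ∧ IsPGroup 2 S ∧ ¬ 2 ∣ S.relIndex N := by
  have := Fact.mk Nat.prime_two
  obtain ⟨Q, hQ⟩ := (hP.comap_subtype (K := N)).exists_le_sylow
  refine ⟨(Q : Subgroup N).map N.subtype, fun x hx => ⟨⟨x, hPN hx⟩, hQ hx, rfl⟩,
    map_subtype_le _, Q.isPGroup'.map _, ?_⟩
  have e : ((Q : Subgroup N).map N.subtype).subgroupOf N = Q :=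
    comap_map_eq_self_of_injective N.subtype_injective _
  rw [relIndex, e]
  exact Q.not_dvd_index

theorem cj_norm {U U' : Subgroup G} {h s : G} (hU : ∀ x, x ∈ U' ↔ h⁻¹ * x * h ∈ U)
    (hs : s ∈ normalizer (U : Set G)) : h * s * h⁻¹ ∈ normalizer (U' : Set G) := by
  intro y
  show y ∈ U' ↔ _ ∈ U'
  rw [hU, hU, show h⁻¹ * (h * s * h⁻¹ * y * (h * s * h⁻¹)⁻¹) * h = s * (h⁻¹ * y * h) * s⁻¹ by group]
  exact hs _

theorem jobSE : JobSE.{u} := by
  intro G _ _ T n H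
  classical
  set A := AA T n with hA
  have Ac := ac H
  have Az := az H
  rw [← hA] at Ac Az
  obtain ⟨t₀, ht₀, hm₀⟩ := Set.exists_max_image (J T A) (fun t => Nat.card (CT T t))
    (Set.toFinite _) (j_ne H)
  obtain ⟨t, ⟨ht, htm⟩, hm₁⟩ := Set.exists_max_image
    {t | t ∈ J T A ∧ Nat.card (CT T t) = Nat.card (CT T t₀)}
    (fun t => Nat.card ↥(T ⊓ normalizer (CT T t : Set G))) (Set.toFinite _) ⟨t₀, ht₀, rfl⟩
  have hm : ∀ t' ∈ J T A, Nat.card (CT T t') ≤ Nat.card (CT T t) := fun t' h => htm ▸ hm₀ t' h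
  set U := CT T t with hU
  have UT : U ≤ T := inf_le_left
  have tU : t ∈ U := mem_CT.mpr ⟨ht.1, Commute.refl t⟩
  have ZU : ∀ z : G, Cen T z → z ∈ U := fun z hz => mem_CT.mpr ⟨hz.1, (hz.2 t ht.1).symm⟩
  have ne : ∃ s ∈ T, s ∉ U := by
    by_contra hn
    push Not at hn
    obtain ⟨a, ha, hat⟩ := ht.2.1
    exact ht.2.2 (Az a ha t ⟨ht.1, fun s hs => (mem_CT.mp (hn s hs)).2⟩ hat)
  have K : ∀ t' ∈ U, (∀ u ∈ U, Commute u t') → (∃ a ∈ A, IsConj a t') → t' ∉ A →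
      ∀ s ∈ T, Commute s t' → s ∈ U := by
    intro t' ht' hc hj hn s hs hst
    have hle : U ≤ CT T t' := fun u hu => mem_CT.mpr ⟨UT hu, hc u hu⟩
    have e : U = CT T t' := eq_of_le_of_card_ge hle (hm t' ⟨UT ht', hj, hn⟩)
    rw [e]
    exact mem_CT.mpr ⟨hs, hst⟩
  have odd : ¬ 2 ∣ T.relIndex ⊤ := by rw [relIndex_top_right]; exact H.odd
  have syl : ¬ 2 ∣ (T ⊓ normalizer (U : Set G)).relIndex (normalizer (U : Set G)) := by
    obtain ⟨S, hPS, hSN, hS, hSo⟩ := ex_sylow_over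
      (H.pg.to_inf_left (K := normalizer (U : Set G))) inf_le_right
    obtain ⟨h, -, hh⟩ := syl_conj le_top H.pg odd hS le_top
    have hUS : U ≤ S := fun u hu => hPS ⟨UT hu, le_normalizer hu⟩
    obtain ⟨t', ht'J, ht'⟩ : ∃ t' ∈ J T A, ∀ u ∈ U, Commute (h * u * h⁻¹) t' := by
      by_cases h1 : h * t * h⁻¹ ∈ A
      · by_cases h2 : ∀ a ∈ A, h * a * h⁻¹ ∈ A
        · exfalso
          have := surj_of_cj h h2 le_rfl _ h1
          rw [show h⁻¹ * (h * t * h⁻¹) * h = t by group] at this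
          exact ht.2.2 this
        · push Not at h2
          obtain ⟨a, ha, h2⟩ := h2
          exact ⟨h * a * h⁻¹, ⟨hh a (hUS (ZU a (Ac a ha).1)), ⟨a, ha, isConj_iff.mpr ⟨h, rfl⟩⟩, h2⟩,
            fun u hu => commute_cj h ((Ac a ha).1.2 u (UT hu))⟩
      · obtain ⟨a, ha, hat⟩ := ht.2.1
        exact ⟨h * t * h⁻¹, ⟨hh t (hUS tU), ⟨a, ha, hat.trans (isConj_iff.mpr ⟨h, rfl⟩)⟩, h1⟩,
          fun u hu => commute_cj h (mem_CT.mp hu).2⟩
    have h1 : ∀ u ∈ U, h * u * h⁻¹ ∈ CT T t' := fun u hu => mem_CT.mpr ⟨hh u (hUS hu), ht' u hu⟩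
    have h2 := surj_of_cj h h1 (hm t' ht'J)
    have h3 : ∀ x, x ∈ CT T t' ↔ h⁻¹ * x * h ∈ U := fun x => ⟨h2 x, fun hx => by
      have := h1 _ hx
      rwa [show h * (h⁻¹ * x * h) * h⁻¹ = x by group] at this⟩
    have h4 : Nat.card (CT T t') = Nat.card (CT T t₀) := by
      rw [← htm]
      exact le_antisymm (hm t' ht'J) (card_le_of_cj h h1)
    have h5 := hm₁ t' ⟨ht'J, h4⟩
    have h6 : Nat.card S ≤ Nat.card ↥(T ⊓ normalizer (CT T t' : Set G)) :=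
      card_le_of_cj h fun s hs => ⟨hh s hs, cj_norm h3 (hSN hs)⟩
    have e : T ⊓ normalizer (U : Set G) = S := eq_of_le_of_card_ge hPS (h6.trans h5)
    rw [e]
    exact hSo
  refine ⟨U, UT, Ac, Az, ZU, ne, syl, K, ?_⟩
  obtain ⟨a, ha, hat⟩ := ht.2.1
  obtain ⟨k, hk⟩ := isConj_iff.mp hat
  have hTa : T ≤ centralizer ({a} : Set G) := fun s hs =>
    mem_centralizer_singleton_iff.mpr ((Ac a ha).1.2 s hs).eq
  have hodd : ¬ 2 ∣ T.relIndex (centralizer ({a} : Set G)) := fun h =>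
    H.odd (h.trans (relIndex_dvd_index_of_le hTa))
  have hUp : IsPGroup 2 U := H.pg.to_le UT
  have hQ : IsPGroup 2 (U.comap (MulAut.conj k).toMonoidHom) :=
    hUp.comap_of_injective _ (MulAut.conj k).injective
  have hQa : U.comap (MulAut.conj k).toMonoidHom ≤ centralizer ({a} : Set G) := by
    intro s hs
    have h1 : Commute (k * s * k⁻¹) t := (mem_CT.mp hs).2
    rw [← hk] at h1
    have h2 := commute_cj k⁻¹ h1
    rw [show k⁻¹ * (k * s * k⁻¹) * k⁻¹⁻¹ = s by group,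
      show k⁻¹ * (k * a * k⁻¹) * k⁻¹⁻¹ = a by group] at h2
    exact mem_centralizer_singleton_iff.mpr h2.eq
  obtain ⟨h, hha, hh⟩ := syl_conj hTa H.pg hodd hQ hQa
  set g := h * k⁻¹ with hg
  have hgt : g * t * g⁻¹ = a := by
    have := mem_centralizer_singleton_iff.mp hha
    calc g * t * g⁻¹ = h * a * h⁻¹ := by rw [← hk, hg]; group
      _ = a := by rw [this]; group
  set T' := T.comap (MulAut.conj g).toMonoidHom with hT'
  have mT' : ∀ s, s ∈ T' ↔ g * s * g⁻¹ ∈ T := fun s => Iff.rfl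
  have hUT' : U ≤ T' := by
    intro u hu
    have := hh (k⁻¹ * u * k) (show k * (k⁻¹ * u * k) * k⁻¹ ∈ U by
      rwa [show k * (k⁻¹ * u * k) * k⁻¹ = u by group])
    rw [mT', hg, show h * k⁻¹ * u * (h * k⁻¹)⁻¹ = h * (k⁻¹ * u * k) * h⁻¹ by group]
    exact this
  have hT'p : IsPGroup 2 T' := H.pg.comap_of_injective _ (MulAut.conj g).injective
  have hne' : ∃ s ∈ T', s ∉ U := by
    by_contra hn
    push Not at hn
    have h1 : Nat.card T ≤ Nat.card U := card_le_of_cj g⁻¹ fun s hs => hn _ (by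
      rw [mT', show g * (g⁻¹ * s * g⁻¹⁻¹) * g⁻¹ = s by group]; exact hs)
    obtain ⟨s, hs, hsU⟩ := ne
    exact hsU (eq_of_le_of_card_ge UT h1 ▸ hs)
  obtain ⟨σ, hσT, hσN, hσU, -⟩ := ex_sig hT'p hUT' hne'
  have hσt : Commute σ t := by
    have h1 := (Ac a ha).1.2 _ ((mT' σ).mp hσT)
    rw [← hgt] at h1
    have h2 := commute_cj g⁻¹ h1
    rwa [show g⁻¹ * (g * σ * g⁻¹) * g⁻¹⁻¹ = σ by group,
      show g⁻¹ * (g * t * g⁻¹) * g⁻¹⁻¹ = t by group] at h2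
  obtain ⟨y, hyN, hy⟩ := syl_conj (inf_le_right : T ⊓ normalizer (U : Set G) ≤ _)
    H.pg.to_inf_left syl (hT'p.to_inf_left (K := normalizer (U : Set G))) inf_le_right
  have hyA : y * t * y⁻¹ ∈ A := by
    by_contra hn
    have h1 := K _ ((hyN t).mp tU) (fun u hu => commute_cj' y (mem_CT.mp
      (surj_of_cj y (fun s hs => (hyN s).mp hs) le_rfl u hu)).2)
      ⟨a, ha, hat.trans (isConj_iff.mpr ⟨y, rfl⟩)⟩ hn _ (hy σ ⟨hσT, hσN⟩).1 (commute_cj y hσt)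
    exact hσU ((hyN σ).mpr h1)
  refine ⟨y⁻¹, inv_mem hyN, _, hyA, ?_⟩
  rw [show y⁻¹ * (y * t * y⁻¹) * y⁻¹⁻¹ = t by group]
  exact ht.2.2

end H46.SQSE
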